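import Mathlib
import Cfsg.Agent.Proj.Baer

/-! Ovals in finite projective planes: chords, tangents and involutory homologies. -/

set_option autoImplicit false
set_option linter.unusedSectionVars false

namespace Cfsg.Agent.Oval
open Configuration ProjectivePlane Cfsg.Agent.Proj

variable {P L : Type*} [Membership P L] [ProjectivePlane P L]

variable (L) in
/-- An oval of a plane of odd order. -/
structure Ov (O : Set P) : Prop where
  odd : Odd (order P L)
  card : O.ncard = order P L + 1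
  arc : ∀ l : L, ∀ p ∈ O, ∀ q ∈ O, ∀ r ∈ O, p ∈ l → q ∈ l → r ∈ l → p = q ∨ p = r ∨ q = r

/-- The line `l` meets `O` in `p` and `q` exactly. -/
def Ch (O : Set P) (l : L) (p q : P) : Prop := ∀ r ∈ O, r ∈ l ↔ r = p ∨ r = q

theorem Ch.left {O : Set P} {l : L} {p q : P} (h : Ch O l p q) (hp : p ∈ O) : p ∈ l :=
  (h p hp).2 (Or.inl rfl)

theorem Ch.right {O : Set P} {l : L} {p q : P} (h : Ch O l p q) (hq : q ∈ O) : q ∈ l :=
  (h q hq).2 (Or.inr rfl)

theorem Ch.symm {O : Set P} {l : L} {p q : P} (h : Ch O l p q) : Ch O l q p :=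
  fun r hr => (h r hr).trans or_comm

variable [Finite P] [Finite L] {O : Set P}

namespace Ov

variable (hO : Ov L O)
include hO

theorem three_le : 3 ≤ order P L := by
  have := one_lt_order P L
  obtain ⟨k, hk⟩ := hO.odd
  omega

theorem ch_of_ne {l : L} {p q : P} (hp : p ∈ O) (hq : q ∈ O) (h : p ≠ q) (h1 : p ∈ l)
    (h2 : q ∈ l) : Ch O l p q := fun r hr =>
  ⟨fun h3 => ((hO.arc l p hp q hq r hr h1 h2 h3).resolve_left h).imp Eq.symm Eq.symm,
    by rintro (rfl | rfl) <;> assumption⟩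

theorem exists_ch_of_mem {l : L} {p : P} (hp : p ∈ O) (h1 : p ∈ l) : ∃ q ∈ O, Ch O l p q := by
  by_cases h : ∃ q ∈ O, q ∈ l ∧ p ≠ q
  · obtain ⟨q, hq, h2, h3⟩ := h
    exact ⟨q, hq, hO.ch_of_ne hp hq h3 h1 h2⟩
  · push Not at h
    exact ⟨p, hp, fun r hr => ⟨fun h2 => Or.inl (h r hr h2).symm, by rintro (rfl | rfl) <;> exact h1⟩⟩

theorem tangent {p : P} (hp : p ∈ O) : ∃! l : L, Ch O l p p := by
  choose f hf1 hf2 using fun q : P => exists_join L p q
  have hinj : Set.InjOn f (O \ {p}) := fun q hq r hr e =>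
    ((hO.ch_of_ne hp hq.1 (Ne.symm hq.2) (hf1 q) (hf2 q) r hr.1).1 (e ▸ hf2 r)).elim
      (fun h => absurd h hr.2) Eq.symm
  have h1 : (f '' (O \ {p})).ncard = order P L := by
    have := Set.ncard_sdiff_singleton_add_one hp
    rw [Set.ncard_image_of_injOn hinj]
    rw [hO.card] at this
    omega
  have hsub : f '' (O \ {p}) ⊆ {l : L | p ∈ l} := by
    rintro _ ⟨q, -, rfl⟩; exact hf1 q
  have h2 := Set.ncard_sdiff hsub
  rw [ncard_lns, h1, Nat.add_sub_cancel_left] at h2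
  obtain ⟨l, hl⟩ := Set.ncard_eq_one.1 h2
  have key : ∀ m : L, Ch O m p p ↔ m ∈ {l : L | p ∈ l} \ f '' (O \ {p}) := by
    intro m
    constructor
    · intro h
      refine ⟨h.left hp, ?_⟩
      rintro ⟨q, hq, rfl⟩
      exact hq.2 (((h q hq.1).1 (hf2 q)).elim id id)
    · rintro ⟨h3, h4⟩ r hr
      refine ⟨fun h5 => Or.inl (by_contra fun h6 => h4 ⟨r, ⟨hr, h6⟩, ?_⟩),
        by rintro (rfl | rfl) <;> exact h3⟩
      exact line_eq h6 (hf2 r) (hf1 r) h5 h3
  exact ⟨l, (key l).2 (hl ▸ rfl), fun m hm => by have := (key m).1 hm; rwa [hl] at this⟩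

theorem exists_ch {p q : P} (hp : p ∈ O) (hq : q ∈ O) : ∃ l : L, Ch O l p q := by
  by_cases h : p = q
  · subst h; exact (hO.tangent hp).exists
  · obtain ⟨l, h1, h2⟩ := exists_join L p q
    exact ⟨l, hO.ch_of_ne hp hq h h1 h2⟩

theorem ch_unique {l m : L} {p q : P} (hp : p ∈ O) (hq : q ∈ O) (h1 : Ch O l p q)
    (h2 : Ch O m p q) : l = m := by
  by_cases h : p = q
  · subst h; exact (hO.tangent hp).unique h1 h2
  · exact line_eq h (h1.left hp) (h1.right hq) (h2.left hp) (h2.right hq)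

theorem ncard_inter_le (l : L) : {p | p ∈ O ∧ p ∈ l}.ncard ≤ 2 := by
  by_cases h : ∃ p ∈ O, p ∈ l
  · obtain ⟨p, hp, h1⟩ := h
    obtain ⟨q, -, hc⟩ := hO.exists_ch_of_mem hp h1
    refine (Set.ncard_le_ncard (t := {p, q}) (fun r hr => (hc r hr.1).1 hr.2)).trans ?_
    simpa using Set.ncard_insert_le p {q}
  · rw [show {p | p ∈ O ∧ p ∈ l} = ∅ from Set.eq_empty_of_forall_notMem fun p hp => h ⟨p, hp⟩]
    simp

theorem ncard_le_three {Z : Set P} {l : L} {c : P} (h : ∀ p ∈ Z, p ∈ O ∧ (p = c ∨ p ∈ l)) :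
    Z.ncard ≤ 3 := by
  have h1 := Set.ncard_le_ncard (s := Z) (t := insert c {p | p ∈ O ∧ p ∈ l})
    fun p hp => (h p hp).2.imp id fun h2 => ⟨(h p hp).1, h2⟩
  have h2 := Set.ncard_insert_le c {p | p ∈ O ∧ p ∈ l}
  have := hO.ncard_inter_le l
  omega

theorem not_subset {l : L} {c : P} (h : ∀ p ∈ O, p = c ∨ p ∈ l) : False := by
  have := hO.ncard_le_three (Z := O) fun p hp => ⟨hp, h p hp⟩
  have := hO.three_le
  have := hO.card
  omega

end Ov

variable {G : Type*} [Group G] [MulAction G P] [MulAction G L] [Coll G P L]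

/-- `g` stabilizes `O`. -/
def St (O : Set P) (g : G) : Prop := ∀ p, g • p ∈ O ↔ p ∈ O

theorem St.mul {g h : G} (hg : St O g) (hh : St O h) : St O (g * h) := fun p => by
  rw [mul_smul, hg, hh]

theorem Ch.smul {l : L} {p q : P} (h : Ch O l p q) {g : G} (hg : St O g) :
    Ch O (g • l) (g • p) (g • q) := fun r hr => by
  obtain ⟨r, rfl⟩ := MulAction.surjective g r
  rw [Coll.mem_iff, h r ((hg r).1 hr), smul_left_cancel_iff, smul_left_cancel_iff]

theorem Ch.smul_left {l : L} {p q : P} (h : Ch O l p q) {g : G} (hg : St O g) (hp : p ∈ O)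
    (hl : g • l = l) : g • p = p ∨ g • p = q :=
  (h _ ((hg p).2 hp)).1 (smul_mem_of_fix hl (h.left hp))

theorem Ch.fix_right {l : L} {p q : P} (h : Ch O l p q) {g : G} (hg : St O g) (hq : q ∈ O)
    (hl : g • l = l) (hp : g • p = p) : g • q = q :=
  (h.symm.smul_left hg hq hl).elim id fun e => by
    rw [← hp, smul_left_cancel_iff] at e; rw [e, hp]

theorem Ov.fix_ch (hO : Ov L O) {l : L} {p q : P} (h : Ch O l p q) {g : G} (hg : St O g)
    (hp : p ∈ O) (hq : q ∈ O) (h1 : g • p = p) (h2 : g • q = q) : g • l = l :=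
  hO.ch_unique hp hq (by simpa [h1, h2] using h.smul hg) h

theorem Ov.swap_ch (hO : Ov L O) {l : L} {p q : P} (h : Ch O l p q) {g : G} (hg : St O g)
    (hp : p ∈ O) (hq : q ∈ O) (h1 : g • p = q) (h2 : g • q = p) : g • l = l :=
  hO.ch_unique hp hq (by simpa [h1, h2] using (h.smul hg).symm) h

variable (L) in
/-- An involutory homology with centre `c` and axis `a`. -/
structure HD (g : G) (c : P) (a : L) : Prop where
  sq : g * g = 1
  ne : g ≠ 1
  cen : Centre L g c
  ax : Axis P g a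
  nm : c ∉ a

theorem exists_hd (hn : Odd (order P L)) {g : G} (h2 : g * g = 1) (h1 : g ≠ 1) {a : L}
    (ha : Axis P g a) : ∃ c : P, HD L g c a := by
  obtain ⟨c, hc⟩ := ha.exists_centre
  exact ⟨c, h2, h1, hc, ha, fun h => hn.not_two_dvd_nat
    (dvd_of_elation h1 hc ha h Nat.prime_two (sq g ▸ h2))⟩

namespace HD

variable {g g' : G} {c c' : P} {a a' : L}

theorem conj (h : HD L g c a) (x : G) : HD L (x * g * x⁻¹) (x • c) (x • a) :=
  ⟨by rw [conj_mul, h.sq]; simp, fun e => h.ne (by simpa using e), h.cen.conj x, h.ax.conj x,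
    smul_notMem h.nm⟩

theorem fix (h : HD L g c a) {p : P} (hp : g • p = p) : p = c ∨ p ∈ a :=
  fixed_point_cases h.ne h.cen h.ax hp

theorem smul_smul (h : HD L g c a) (p : P) : g • g • p = p := by rw [← mul_smul, h.sq, one_smul]

theorem comm_c (h : HD L g c a) {x : G} (hx : x * g = g * x) : x • c = c :=
  Centre.unique h.ne (by simpa [hx] using (h.conj x).cen) h.cen

theorem comm_a (h : HD L g c a) {x : G} (hx : x * g = g * x) : x • a = a :=
  Axis.unique h.ne (by simpa [hx] using (h.conj x).ax) h.ax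

variable (hO : Ov L O)
include hO

theorem notMem (h : HD L g c a) (hg : St O g) : c ∉ O := fun hc =>
  hO.not_subset (l := a) (c := c) fun p hp => by
    by_cases e : p = c
    · exact Or.inl e
    obtain ⟨l, hl⟩ := hO.exists_ch hc hp
    exact h.fix (hl.fix_right hg hp (h.cen l (hl.left hc)) h.cen.fix)

theorem mem_of_fix (h : HD L g c a) (hg : St O g) {p : P} (hp : p ∈ O) (e : g • p = p) : p ∈ a :=
  (h.fix e).resolve_left fun e => h.notMem hO hg (e ▸ hp)

theorem smul_eq (h : HD L g c a) (hg : St O g) {p q : P} (hp : p ∈ O) (hq : q ∈ O) {l : L}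
    (hl : Ch O l p q) (hc : c ∈ l) : g • p = q := by
  have h1 := h.cen l hc
  refine (hl.smul_left hg hp h1).elim (fun e => ?_) id
  by_contra hne
  rw [e] at hne
  exact h.nm (line_eq hne (hl.left hp) (hl.right hq) (h.mem_of_fix hO hg hp e)
    (h.mem_of_fix hO hg hq (hl.fix_right hg hq h1 e)) ▸ hc)

theorem eq_of_centre (h : HD L g c a) (h' : HD L g' c a') (hg : St O g) (hg' : St O g') :
    g = g' := by
  have h1 : g * g' = 1 := by
    by_contra hne
    obtain ⟨b, hb⟩ := (h.cen.mul h'.cen).exists_axis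
    refine hO.not_subset (l := b) (c := c) fun p hp =>
      fixed_point_cases hne (h.cen.mul h'.cen) hb ?_
    obtain ⟨l, h1, h2⟩ := exists_join L p c
    obtain ⟨q, hq, hl⟩ := hO.exists_ch_of_mem hp h1
    rw [mul_smul, h'.smul_eq hO hg' hp hq hl h2, h.smul_eq hO hg hq hp hl.symm h2]
  rw [eq_inv_of_mul_eq_one_left h1, inv_eq_of_mul_eq_one_right h'.sq]

theorem mem_tangent (h : HD L g c a) (hg : St O g) {p : P} (hp : p ∈ O) (e : g • p = p) {l : L}
    (hl : Ch O l p p) : c ∈ l := by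
  obtain ⟨m, h1, h2⟩ := exists_join L p c
  obtain ⟨q, hq, hm⟩ := hO.exists_ch_of_mem hp h1
  obtain rfl : p = q := e.symm.trans (h.smul_eq hO hg hp hq hm h2)
  exact hO.ch_unique hp hp hm hl ▸ h2

theorem eq_of_fix (h : HD L g c a) (h' : HD L g' c' a') (hg : St O g) (hg' : St O g') {p q : P}
    (hp : p ∈ O) (hq : q ∈ O) (hpq : p ≠ q) (h1 : g • p = p) (h2 : g • q = q) (h3 : g' • p = p)
    (h4 : g' • q = q) : g = g' := by
  obtain ⟨l, hl⟩ := hO.exists_ch hp hp
  obtain ⟨m, hm⟩ := hO.exists_ch hq hq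
  have hlm : l ≠ m := fun e => hpq (((hm p hp).1 (e ▸ hl.left hp)).elim id id)
  obtain rfl : c = c' := point_eq hlm (h.mem_tangent hO hg hp h1 hl) (h.mem_tangent hO hg hq h2 hm)
    (h'.mem_tangent hO hg' hp h3 hl) (h'.mem_tangent hO hg' hq h4 hm)
  exact h.eq_of_centre hO h' hg hg'

theorem ncard_fix_le (h : HD L g c a) (hg : St O g) : {p | p ∈ O ∧ g • p = p}.ncard ≤ 2 :=
  (Set.ncard_le_ncard (t := {p | p ∈ O ∧ p ∈ a})
    fun _ hp => ⟨hp.1, h.mem_of_fix hO hg hp.1 hp.2⟩).trans (hO.ncard_inter_le a)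

theorem ne_c (h : HD L g c a) (h' : HD L g' c' a') (hg : St O g) (hg' : St O g') (hne : g ≠ g') :
    c ≠ c' := fun e => hne (h.eq_of_centre hO (e ▸ h') hg hg')

theorem mem_of_comm (h : HD L g c a) (h' : HD L g' c' a') (hg : St O g) (hg' : St O g')
    (hc : g * g' = g' * g) (hne : g ≠ g') : c' ∈ a :=
  (h.fix (h'.comm_c hc)).resolve_left (h.ne_c hO h' hg hg' hne).symm

theorem mul (h : HD L g c a) (h' : HD L g' c' a') (hg : St O g) (hg' : St O g')
    (hc : g * g' = g' * g) (hne : g ≠ g') : ∃ (e : P) (k : L), HD L (g * g') e k ∧ e ∈ a ∧ e ∈ a' ∧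
      c ∈ k ∧ c' ∈ k := by
  have h2 : g * g' * (g * g') = 1 := by
    rw [mul_assoc, ← mul_assoc g', ← hc, mul_assoc g, h'.sq, mul_one, h.sq]
  have h1 : g * g' ≠ 1 := fun e =>
    hne (by rw [eq_inv_of_mul_eq_one_left e, inv_eq_of_mul_eq_one_right h'.sq])
  have hca := h.mem_of_comm hO h' hg hg' hc hne
  have haa : a ≠ a' := fun e => h'.nm (e ▸ hca)
  rcases planar_or_axis P L h2 h1 with hp | ⟨k, hk⟩
  · exfalso
    let _ := fixPlane hp
    obtain ⟨e, he1, he2⟩ := exists_meet' (P := P) haa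
    obtain ⟨r, hr, hr1, hr2⟩ := exists_mem_ne (P := FP {g * g'} P) (L := FP {g * g'} L)
      ⟨a, by rintro _ rfl; rw [mul_smul, h.comm_a hc.symm, h.ax.fix]⟩
      ⟨c', by rintro _ rfl; rw [mul_smul, h'.cen.fix, h.ax c' hca]⟩
      ⟨e, by rintro _ rfl; rw [mul_smul, h'.ax e he2, h.ax e he1]⟩
    have h3 : g' • r.1 = r.1 := by
      have : (g' * g) • r.1 = r.1 := r.2 _ hc.symm
      rwa [mul_smul, h.ax r.1 hr] at this
    exact (h'.fix h3).elim (fun e => hr1 (Subtype.ext e))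
      fun h4 => hr2 (Subtype.ext (point_eq haa hr h4 he1 he2))
  · obtain ⟨e, he⟩ := exists_hd hO.odd h2 h1 hk
    have h3 : g * (g * g') = g * g' * g := by rw [mul_assoc, ← hc]
    have h4 : g' * (g * g') = g * g' * g' := by rw [← mul_assoc, hc]
    have h5 : g ≠ g * g' := fun e => h'.ne (by simpa using e)
    have h6 : g' ≠ g * g' := fun e => h.ne (by simpa using e)
    exact ⟨e, k, he, h.mem_of_comm hO he hg (hg.mul hg') h3 h5,
      h'.mem_of_comm hO he hg' (hg.mul hg') h4 h6, he.mem_of_comm hO h (hg.mul hg') hg h3.symm h5.symm,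
      he.mem_of_comm hO h' (hg.mul hg') hg' h4.symm h6.symm⟩

end HD

end Cfsg.Agent.Oval
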