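import Mathlib
import Cfsg.Agent.Oval.Basic

/-! Baer involutions stabilizing an oval. -/

set_option autoImplicit false
set_option linter.unusedSectionVars false

namespace Cfsg.Agent.Oval
open Configuration ProjectivePlane Cfsg.Agent.Proj

variable {P L : Type*} [Membership P L] [ProjectivePlane P L] [Finite P] [Finite L] {O : Set P}
variable {G : Type*} [Group G] [MulAction G P] [MulAction G L] [Coll G P L]

/-- The points of `O` fixed by `g`. -/
def Fx (O : Set P) (g : G) : Set P := {p | p ∈ O ∧ g • p = p}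

theorem Ov.planar (hO : Ov L O) {g : G} (h2 : g * g = 1) (h1 : g ≠ 1) (hg : St O g)
    (h3 : 3 ≤ (Fx O g).ncard) : Planar P L {g} :=
  (planar_or_axis P L h2 h1).resolve_right fun ⟨_, ha⟩ => by
    obtain ⟨c, hc⟩ := exists_hd hO.odd h2 h1 ha
    have := hc.ncard_fix_le hO hg
    change (Fx O g).ncard ≤ 2 at this
    omega

theorem order_eq_sq {g : G} (h2 : g * g = 1) (h1 : g ≠ 1) (hp : Planar P L {g}) :
    letI := fixPlane hp
    order P L = order (FP {g} P) (FP {g} L) ^ 2 := by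
  letI := fixPlane hp
  obtain ⟨s, hs, h⟩ := baer h2 h1 hp
  rw [card_P (FP {g} P) (FP {g} L)] at h
  rw [hs, sq_add_inj h]

theorem ncard_FP {X : Type*} [MulAction G X] (g : G) (Q : X → Prop) :
    {x : FP {g} X | Q x.1}.ncard = {x | Q x ∧ g • x = x}.ncard :=
  Set.ncard_congr (fun x _ => x.1) (fun x hx => ⟨hx, x.2 g rfl⟩) (fun _ _ _ _ e => Subtype.ext e)
    fun x hx => ⟨⟨x, by rintro _ rfl; exact hx.2⟩, hx.1, rfl⟩

theorem Ov.card_fx (hO : Ov L O) {g : G} (hg : St O g) (hp : Planar P L {g}) {A : P}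
    (hA : A ∈ Fx O g) :
    letI := fixPlane hp
    (Fx O g).ncard = order (FP {g} P) (FP {g} L) + 1 := by
  letI := fixPlane hp
  rw [← ncard_lns (P := FP {g} P) (L := FP {g} L) (⟨A, by rintro _ rfl; exact hA.2⟩ : FP {g} P)]
  refine Eq.trans ?_ (ncard_FP g fun l : L => A ∈ l).symm
  choose f hf using fun q (hq : q ∈ Fx O g) => hO.exists_ch hA.1 hq.1
  refine Set.ncard_congr f (fun q hq => ⟨(hf q hq).left hA.1,
    hO.fix_ch (hf q hq) hg hA.1 hq.1 hA.2 hq.2⟩) (fun q r hq hr e => ?_) fun l hl => ?_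
  · rcases (hf q hq r hr.1).1 (e ▸ (hf r hr).right hr.1) with h | h
    · exact ((hf r hr q hq.1).1 (e ▸ (hf q hq).right hq.1)).elim (fun h' => h'.trans h.symm) id
    · exact h.symm
  · obtain ⟨q, hq, hc⟩ := hO.exists_ch_of_mem hA.1 hl.1
    have hq' : q ∈ Fx O g := ⟨hq, hc.fix_right hg hq hl.2 hA.2⟩
    exact ⟨q, hq', hO.ch_unique hA.1 hq (hf q hq') hc⟩

theorem Ov.sub (hO : Ov L O) {g : G} (h2 : g * g = 1) (h1 : g ≠ 1) (hg : St O g)
    (hp : Planar P L {g}) {A : P} (hA : A ∈ Fx O g) :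
    letI := fixPlane hp
    Ov (FP {g} L) {p : FP {g} P | p.1 ∈ O} := by
  letI := fixPlane hp
  refine ⟨?_, (ncard_FP g (· ∈ O)).trans (hO.card_fx hg hp hA), fun l p h3 q h4 r h5 h6 h7 h8 => ?_⟩
  · have := hO.odd
    rw [order_eq_sq h2 h1 hp] at this
    exact (Nat.odd_pow_iff two_ne_zero).1 this
  · exact (hO.arc l.1 _ h3 _ h4 _ h5 h6 h7 h8).imp Subtype.ext (Or.imp Subtype.ext Subtype.ext)

/-- The permutation of the fixed set of `g` induced by an element commuting with `g`. -/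
def cperm (X : Type*) [MulAction G X] {g x : G} (h : x * g = g * x) : Equiv.Perm (FP {g} X) where
  toFun p := ⟨x • p.1, by rintro _ rfl; rw [← mul_smul, ← h, mul_smul, p.2 _ rfl]⟩
  invFun p := ⟨x⁻¹ • p.1, by
    rintro _ rfl; rw [eq_inv_smul_iff, ← mul_smul, h, mul_smul, smul_inv_smul, p.2 _ rfl]⟩
  left_inv p := Subtype.ext (inv_smul_smul x p.1)
  right_inv p := Subtype.ext (smul_inv_smul x p.1)

variable (P L) in
/-- The collineation of the fixed structure of `g` induced by an element commuting with `g`. -/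
def cres {g x : G} (h : x * g = g * x) : Col (FP {g} P) (FP {g} L) :=
  ⟨(cperm P h, cperm L h), fun p l => Coll.mem_iff x p.1 l.1⟩

theorem cres_P {g x : G} (h : x * g = g * x) (p : FP {g} P) : (cres P L h • p).1 = x • p.1 := rfl

theorem cres_L {g x : G} (h : x * g = g * x) (p : FP {g} L) : (cres P L h • p).1 = x • p.1 := rfl

theorem cres_ext {g : G} {a b : Col (FP {g} P) (FP {g} L)} (h1 : ∀ p : FP {g} P, (a • p).1 = (b • p).1)
    (h2 : ∀ p : FP {g} L, (a • p).1 = (b • p).1) : a = b :=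
  Subtype.ext (Prod.ext (Equiv.ext fun p => Subtype.ext (h1 p))
    (Equiv.ext fun p => Subtype.ext (h2 p)))

theorem fixL_cases (hn : Odd (order P L)) {g : G} (h2 : g * g = 1) (h1 : g ≠ 1) :
    {l : L | g • l = l}.ncard ≤ order P L + 2 ∨
      ∃ s, order P L = s ^ 2 ∧ {l : L | g • l = l}.ncard = s ^ 2 + s + 1 := by
  rcases planar_or_axis P L h2 h1 with hp | ⟨a, ha⟩
  · letI := fixPlane hp
    refine Or.inr ⟨_, order_eq_sq h2 h1 hp, ?_⟩
    rw [← card_L (FP {g} P) (FP {g} L), ← Set.ncard_univ]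
    simpa using (ncard_FP g fun _ : L => True).symm
  · obtain ⟨c, hc⟩ := ha.exists_centre
    have h3 := Set.ncard_le_ncard (s := {l : L | g • l = l}) (t := insert a {l : L | c ∈ l})
      fun l hl => fixed_line_cases h1 hc ha hl
    have h4 := Set.ncard_insert_le a {l : L | c ∈ l}
    rw [ncard_lns] at h4
    exact Or.inl (h3.trans h4)

theorem Ov.count (hO : Ov L O) {a b : G} (ha : St O a) (hb : St O b) (ha2 : a * a = 1)
    (hb2 : b * b = 1) (hc : a * b = b * a) :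
    (Fx O a ∩ Fx O b).ncard * (Fx O a ∩ Fx O b).ncard + (Fx O a).ncard + (Fx O b).ncard +
      (Fx O (a * b)).ncard ≤
      2 * {l : L | a • l = l ∧ b • l = l}.ncard + 2 * (Fx O a ∩ Fx O b).ncard := by
  classical
  set C := Fx O a ∩ Fx O b with hC
  obtain ⟨l₀, -⟩ := exists_join L (Classical.choice (by
    obtain ⟨p, -⟩ := ProjectivePlane.exists_config (P := P) (L := L); exact ⟨p⟩) : P) (Classical.choice
      (by obtain ⟨p, -⟩ := ProjectivePlane.exists_config (P := P) (L := L); exact ⟨p⟩))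
  have : Nonempty L := ⟨l₀⟩
  choose! ch hch using fun p q (hp : p ∈ O) (hq : q ∈ O) => hO.exists_ch hp hq
  letI : LinearOrder P := linearOrderOfSTO WellOrderingRel
  have haa : ∀ p : P, a • a • p = p := fun p => by rw [← mul_smul, ha2, one_smul]
  have hbb : ∀ p : P, b • b • p = p := fun p => by rw [← mul_smul, hb2, one_smul]
  have hab : ∀ p : P, a • b • p = b • a • p := fun p => by rw [← mul_smul, hc, mul_smul]
  let T : Set (P × P) := {x | x.1 ∈ O ∧ x.2 ∈ O ∧ a • ch x.1 x.2 = ch x.1 x.2 ∧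
    b • ch x.1 x.2 = ch x.1 x.2}
  let f : P × P → L × Bool := fun x => (ch x.1 x.2, decide (x.1 < x.2))
  have key : ∀ x ∈ T, ∀ y ∈ T, ch x.1 x.2 = ch y.1 y.2 → x = y ∨ x = y.swap := by
    rintro ⟨p, q⟩ ⟨hp, hq, -⟩ ⟨r, s⟩ ⟨hr, hs, -⟩ e
    have h1 := hch p q hp hq
    have h2 := hch r s hr hs
    simp only at e hp hq hr hs
    rw [← e] at h2
    have h3 := (h2 p hp).1 (h1.left hp)
    have h4 := (h2 q hq).1 (h1.right hq)
    have h5 := (h1 r hr).1 (h2.left hr)
    have h6 := (h1 s hs).1 (h2.right hs)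
    simp only [Prod.mk.injEq, Prod.swap]
    grind
  have hf : Set.InjOn f T := fun x hx y hy e => by
    obtain ⟨e1, e2⟩ := Prod.ext_iff.1 e
    refine (key x hx y hy e1).elim id fun h => ?_
    subst h
    simp only [f, Prod.fst_swap, Prod.snd_swap, decide_eq_decide] at e2
    have : y.1 = y.2 := by
      rcases lt_trichotomy y.1 y.2 with h | h | h
      · exact absurd (e2.2 h) h.asymm
      · exact h
      · exact absurd (e2.1 h) h.asymm
    exact Prod.ext this.symm this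
  have hCT : C ×ˢ C ⊆ T := fun x hx => ⟨hx.1.1.1, hx.2.1.1,
    hO.fix_ch (hch _ _ hx.1.1.1 hx.2.1.1) ha hx.1.1.1 hx.2.1.1 hx.1.1.2 hx.2.1.2,
    hO.fix_ch (hch _ _ hx.1.1.1 hx.2.1.1) hb hx.1.1.1 hx.2.1.1 hx.1.2.2 hx.2.2.2⟩
  have hd : ∀ p ∈ C, (p, p) ∈ T := fun p hp => hCT ⟨hp, hp⟩
  have h1 : T.ncard + C.ncard ≤ {l : L | a • l = l ∧ b • l = l}.ncard * 2 := by
    rw [← Set.ncard_image_of_injOn hf, ← Set.ncard_image_of_injOn (s := C)
      (f := fun p => (ch p p, true)) fun p hp q hq e =>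
        (key _ (hd p hp) _ (hd q hq) (congrArg Prod.fst e)).elim (congrArg Prod.fst)
          (congrArg Prod.fst), ← Set.ncard_union_eq, show 2 = (Set.univ : Set Bool).ncard by simp,
      ← Set.ncard_prod]
    · refine Set.ncard_le_ncard ?_
      rintro _ (⟨x, hx, rfl⟩ | ⟨p, hp, rfl⟩)
      · exact ⟨hx.2.2, trivial⟩
      · exact ⟨(hd p hp).2.2, trivial⟩
    · rw [Set.disjoint_left]
      rintro _ ⟨x, hx, rfl⟩ ⟨p, hp, e⟩
      obtain ⟨e1, e2⟩ := Prod.ext_iff.1 e
      rcases key _ hx _ (hd p hp) e1.symm with rfl | rfl <;> simp [f] at e2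
  have h2 : (Fx O a ∪ Fx O b ∪ Fx O (a * b)) \ C ⊆ Prod.fst '' (T \ C ×ˢ C) := by
    rintro p ⟨(hp | hp) | hp, hn⟩
    · have hq := (hb p).2 hp.1
      exact ⟨(p, b • p), ⟨⟨hp.1, hq, hO.fix_ch (hch _ _ hp.1 hq) ha hp.1 hq hp.2
        (by rw [hab, hp.2]), hO.swap_ch (hch _ _ hp.1 hq) hb hp.1 hq rfl (hbb p)⟩,
        fun h => hn h.1⟩, rfl⟩
    · have hq := (ha p).2 hp.1
      exact ⟨(p, a • p), ⟨⟨hp.1, hq, hO.swap_ch (hch _ _ hp.1 hq) ha hp.1 hq rfl (haa p),
        hO.fix_ch (hch _ _ hp.1 hq) hb hp.1 hq hp.2 (by rw [← hab, hp.2])⟩, fun h => hn h.1⟩, rfl⟩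
    · have hq := (ha p).2 hp.1
      have e : b • a • p = p := by rw [← hab, ← mul_smul, hp.2]
      exact ⟨(p, a • p), ⟨⟨hp.1, hq, hO.swap_ch (hch _ _ hp.1 hq) ha hp.1 hq rfl (haa p),
        hO.swap_ch (hch _ _ hp.1 hq) hb hp.1 hq (by rw [← hbb (a • p), e]) e⟩, fun h => hn h.1⟩, rfl⟩
  have h3 := (Set.ncard_le_ncard h2).trans Set.ncard_image_le
  have h4 := Set.ncard_sdiff_add_ncard_of_subset hCT
  rw [Set.ncard_prod] at h4
  have h5 := Set.ncard_sdiff_add_ncard_of_subset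
    (show C ⊆ Fx O a ∪ Fx O b ∪ Fx O (a * b) from fun p hp => Or.inl (Or.inl hp.1))
  have h6 := Set.ncard_union_add_ncard_inter (Fx O a) (Fx O b)
  have h7 := Set.ncard_union_add_ncard_inter (Fx O a ∪ Fx O b) (Fx O (a * b))
  have h8 : (Fx O a ∪ Fx O b) ∩ Fx O (a * b) ⊆ C := by
    rintro p ⟨hp | hp, h⟩
    · exact ⟨hp, hp.1, by simpa [mul_smul, hab, hp.2] using h.2⟩
    · exact ⟨⟨hp.1, by simpa [mul_smul, hp.2] using h.2⟩, hp⟩
  have h9 := Set.ncard_le_ncard h8
  rw [← hC] at h6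
  omega

theorem Ov.baer_data (hO : Ov L O) {g : G} (h2 : g * g = 1) (h1 : g ≠ 1) (hg : St O g)
    (h3 : 3 ≤ (Fx O g).ncard) : ∃ m, order P L = m ^ 2 ∧ (Fx O g).ncard = m + 1 := by
  have hp := hO.planar h2 h1 hg h3
  obtain ⟨A, hA⟩ := Set.nonempty_of_ncard_ne_zero (s := Fx O g) (by omega)
  exact ⟨_, order_eq_sq h2 h1 hp, hO.card_fx hg hp hA⟩

theorem Ov.exists_moved (hO : Ov L O) {g : G} (h2 : g * g = 1) (h1 : g ≠ 1) (hg : St O g) :
    ∃ p ∈ O, g • p ≠ p := by
  by_contra hc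
  push Not at hc
  have e : Fx O g = O := Set.ext fun p => ⟨fun h => h.1, fun h => ⟨h, hc p h⟩⟩
  have := hO.three_le
  obtain ⟨m, h4, h5⟩ := hO.baer_data h2 h1 hg (by rw [e, hO.card]; omega)
  rw [e, hO.card] at h5
  nlinarith

/-- No four-group all of whose involutions fix three points of the oval. -/
theorem Ov.not_four (hO : Ov L O) {a b : G} (ha : St O a) (hb : St O b) (ha2 : a * a = 1)
    (hb2 : b * b = 1) (hc : a * b = b * a) (ha1 : a ≠ 1) (hb1 : b ≠ 1) (hab1 : a * b ≠ 1)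
    (h1 : 3 ≤ (Fx O a).ncard) (h2 : 3 ≤ (Fx O b).ncard) (h3 : 3 ≤ (Fx O (a * b)).ncard) :
    False := by
  have hab2 : a * b * (a * b) = 1 := by
    rw [mul_assoc, ← mul_assoc b, ← hc, mul_assoc a, hb2, mul_one, ha2]
  have hp := hO.planar ha2 ha1 ha h1
  obtain ⟨A, hA⟩ := Set.nonempty_of_ncard_ne_zero (s := Fx O a) (by omega)
  letI := fixPlane hp
  have h4 := order_eq_sq ha2 ha1 hp
  have h5 := hO.card_fx ha hp hA
  have hO' := hO.sub ha2 ha1 ha hp hA
  obtain ⟨m1, h6, h7⟩ := hO.baer_data hb2 hb1 hb h2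
  obtain ⟨m2, h8, h9⟩ := hO.baer_data hab2 hab1 (ha.mul hb) h3
  set m := order (FP {a} P) (FP {a} L)
  obtain rfl : m = m1 := Nat.pow_left_injective two_ne_zero (h4.symm.trans h6)
  obtain rfl : m = m2 := Nat.pow_left_injective two_ne_zero (h4.symm.trans h8)
  have h10 := hO'.three_le
  by_cases h : cres P L hc.symm = 1
  · have hP : ∀ p, a • p = p → b • p = p := fun p e =>
      (cres_P hc.symm ⟨p, by rintro _ rfl; exact e⟩).symm.trans (by rw [h]; rfl)
    have hL : ∀ p : L, a • p = p → b • p = p := fun p e =>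
      (cres_L (P := P) hc.symm ⟨p, by rintro _ rfl; exact e⟩).symm.trans (by rw [h]; rfl)
    have e1 : Fx O a = Fx O b :=
      Set.eq_of_subset_of_ncard_le (fun p e => ⟨e.1, hP p e.2⟩) (by omega)
    have e2 : Fx O a = Fx O (a * b) :=
      Set.eq_of_subset_of_ncard_le (fun p e => ⟨e.1, by rw [mul_smul, hP p e.2, e.2]⟩) (by omega)
    obtain ⟨p, hp1, hp2⟩ := hO.exists_moved ha2 ha1 ha
    have hq := (ha p).2 hp1
    have haa : a • a • p = p := by rw [← mul_smul, ha2, one_smul]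
    obtain ⟨l, hl⟩ := hO.exists_ch hp1 hq
    rcases hl.smul_left hb hp1 (hL l (hO.swap_ch hl ha hp1 hq rfl haa)) with e | e
    · exact hp2 (e1.ge ⟨hp1, e⟩).2
    · exact hp2 (e2.ge ⟨hp1, by rw [mul_smul, e, haa]⟩).2
  · have h11 := fixL_cases hO'.odd (g := cres P L hc.symm) (cres_ext
      (fun p => (mul_smul b b p.1).symm.trans (by rw [hb2, one_smul]; rfl))
      (fun p => (mul_smul b b p.1).symm.trans (by rw [hb2, one_smul]; rfl))) h
    have h12 : {l : FP {a} L | cres P L hc.symm • l = l}.ncard =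
        {l : L | a • l = l ∧ b • l = l}.ncard := by
      rw [show {l : L | a • l = l ∧ b • l = l} = {l : L | b • l = l ∧ a • l = l} by
        ext; exact and_comm, ← ncard_FP a fun l : L => b • l = l]
      exact congrArg _ (Set.ext fun l => Subtype.ext_iff)
    have h13 := hO.count ha hb ha2 hb2 hc
    rw [h12] at h11
    rw [h5, h7, h9] at h13
    have h14 : 2 * (Fx O a ∩ Fx O b).ncard ≤
        (Fx O a ∩ Fx O b).ncard * (Fx O a ∩ Fx O b).ncard + 1 := by
      nlinarith [sq_nonneg (((Fx O a ∩ Fx O b).ncard : ℤ) - 1)]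
    rcases h11 with h11 | ⟨s, hs, h11⟩
    · omega
    · have h15 := hO'.odd
      change m = _ at hs
      change Odd m at h15
      change 3 ≤ m at h10
      rw [hs] at h13 h10 h15
      have : s ≤ 2 := by nlinarith
      interval_cases s
      · omega
      · omega
      · exact absurd h15 (by decide)

theorem Ov.cres_ne_one (hO : Ov L O) {r x : G} (h2 : r * r = 1) (h1 : r ≠ 1) (hx : St O x)
    (e : x * x = r) (h : x * r = r * x) : cres P L h ≠ 1 := fun h0 => by
  have hr : St O r := e ▸ hx.mul hx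
  obtain ⟨p, hp1, hp2⟩ := hO.exists_moved h2 h1 hr
  have hq := (hr p).2 hp1
  have hrr : r • r • p = p := by rw [← mul_smul, h2, one_smul]
  obtain ⟨l, hl⟩ := hO.exists_ch hp1 hq
  have h3 : x • l = l := (cres_L (P := P) h ⟨l, by
    rintro _ rfl; exact hO.swap_ch hl hr hp1 hq rfl hrr⟩).symm.trans (by rw [h0]; rfl)
  rcases hl.smul_left hx hp1 h3 with h4 | h4
  · exact hp2 (by rw [← e, mul_smul, h4, h4])
  · exact hp2 (by rw [← e, mul_smul, h4, ← mul_smul, h, mul_smul, h4, hrr])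

/-- No quaternion group fixes three points of the oval. -/
theorem Ov.not_q8 (hO : Ov L O) {r i j : G} (h1 : r ≠ 1) (h2 : r * r = 1) (hi : St O i)
    (hj : St O j) (ei : i * i = r) (ej : j * j = r) (ek : i * j * (i * j) = r)
    (h3 : 3 ≤ (Fx O i ∩ Fx O j).ncard) : False := by
  have hr : St O r := ei ▸ hi.mul hi
  have hci : i * r = r * i := by rw [← ei, mul_assoc]
  have hcj : j * r = r * j := by rw [← ej, mul_assoc]
  have hck : i * j * r = r * (i * j) := by rw [← ek, ← mul_assoc]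
  have hsub : ∀ p ∈ Fx O i ∩ Fx O j, r • p = p := fun p hp => by rw [← ei, mul_smul, hp.1.2, hp.1.2]
  have h4 := h3.trans (Set.ncard_le_ncard (t := Fx O r) fun p hp => ⟨hp.1.1, hsub p hp⟩)
  have hp := hO.planar h2 h1 hr h4
  obtain ⟨A, hA⟩ := Set.nonempty_of_ncard_ne_zero (s := Fx O r) (by omega)
  letI := fixPlane hp
  have hij : i * j = j * i * r := by
    have h5 : j * (i * j) = i := mul_left_cancel (a := i) (by rw [ei, ← ek, mul_assoc i j])
    apply mul_left_cancel (a := j)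
    rw [h5, ← mul_assoc, ← mul_assoc, ej, ← hci, mul_assoc, h2, mul_one]
  have e : cres P L hci * cres P L hcj = cres P L hck := cres_ext
    (fun p => (mul_smul i j p.1).symm) fun p => (mul_smul i j p.1).symm
  have key : ∀ {x : G} (h : x * r = r * x), (∀ p ∈ Fx O i ∩ Fx O j, x • p = p) →
      3 ≤ (Fx {p : FP {r} P | p.1 ∈ O} (cres P L h)).ncard := fun {x} h hx =>
    h3.trans ((Set.ncard_le_ncard (t := {p | (p ∈ O ∧ x • p = p) ∧ r • p = p})
      fun p hp => ⟨⟨hp.1.1, hx p hp⟩, hsub p hp⟩).trans_eq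
      ((ncard_FP r fun p : P => p ∈ O ∧ x • p = p).symm.trans
        (congrArg _ (Set.ext fun p => and_congr_right fun _ =>
          ⟨fun e => Subtype.ext e, fun e => congrArg Subtype.val e⟩))))
  have sq : ∀ {x : G} (h : x * r = r * x), x * x = r → cres P L h * cres P L h = 1 :=
    fun {x} h e => cres_ext (fun p => (mul_smul x x p.1).symm.trans (p.2 _ e))
      fun p => (mul_smul x x p.1).symm.trans (p.2 _ e)
  refine (hO.sub h2 h1 hr hp hA).not_four (a := cres P L hci) (b := cres P L hcj)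
    (fun p => hi p.1) (fun p => hj p.1) (sq _ ei) (sq _ ej) (cres_ext (fun p => ?_) fun p => ?_)
    (hO.cres_ne_one h2 h1 hi ei _) (hO.cres_ne_one h2 h1 hj ej _)
    (e ▸ hO.cres_ne_one h2 h1 (hi.mul hj) ek _) (key _ fun p hp => hp.1.2)
    (key _ fun p hp => hp.2.2) (e ▸ key _ fun p hp => by rw [mul_smul, hp.2.2, hp.1.2])
  · change i • j • p.1 = j • i • p.1
    rw [← mul_smul, hij, mul_smul, p.2 _ rfl, mul_smul]
  · change i • j • p.1 = j • i • p.1
    rw [← mul_smul, hij, mul_smul, p.2 _ rfl, mul_smul]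

end Cfsg.Agent.Oval
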