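import Mathlib
import Cfsg.Agent.Oval.Baer

/-! Groups without subgroups of index two stabilizing an oval. -/

set_option autoImplicit false
set_option linter.unusedSectionVars false

namespace Cfsg.Agent.Oval
open Configuration ProjectivePlane Cfsg.Agent.Proj

variable {P L : Type*} [Membership P L] [ProjectivePlane P L] [Finite P] [Finite L] {O : Set P}
variable {G : Type*} [Group G] [MulAction G P] [MulAction G L] [Coll G P L]

section Parity
variable {Z : Set P}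

/-- The permutation induced on an invariant set. -/
def rp {g : G} (h : St Z g) : Equiv.Perm Z := (MulAction.toPerm g).subtypePerm h

theorem rp_mul {g g' : G} (h : St Z g) (h' : St Z g') : rp (h.mul h') = rp h * rp h' :=
  Equiv.ext fun p => Subtype.ext (mul_smul g g' p.1)

open Classical in
theorem par {g : G} (h : St Z g) (h2 : g * g = 1) [Fintype Z] (hs : Equiv.Perm.sign (rp h) = 1) :
    Z.ncard ≡ (Fx Z g).ncard [MOD 4] := by
  have h3 : rp h ^ 2 = 1 := by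
    rw [sq, ← rp_mul]
    exact Equiv.ext fun p => Subtype.ext (show (g * g) • p.1 = p.1 by rw [h2, one_smul])
  have h4 : Fintype.card (Function.fixedPoints (rp h)) = (Fx Z g).ncard := by
    rw [← Nat.card_eq_fintype_card, Nat.card_coe_set_eq]
    exact Set.ncard_congr (fun x _ => x.1) (fun x hx => ⟨x.2, congrArg Subtype.val hx⟩)
      (fun _ _ _ _ e => Subtype.ext e) fun x hx => ⟨⟨x, hx.1⟩, Subtype.ext hx.2, rfl⟩
  rw [Equiv.Perm.sign_of_pow_two_eq_one h3, h4, ← Nat.card_eq_fintype_card, Nat.card_coe_set_eq,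
    neg_one_pow_eq_one_iff_even (by decide)] at hs
  have h5 : Z.ncard ≡ (Fx Z g).ncard [MOD 2] := ncard_modEq_fixed (f := (g • ·)) Nat.prime_two
    (fun x hx => (h x).2 hx) fun x _ => by simp [← mul_smul, h2]
  have h6 : (Fx Z g).ncard ≤ Z.ncard := Set.ncard_le_ncard fun _ h => h.1
  obtain ⟨k, hk⟩ := hs
  unfold Nat.ModEq at *
  omega

theorem par_sq {a : G} (h : St Z a) (h2 : a * a * (a * a) = 1) :
    Z.ncard ≡ (Fx Z (a * a)).ncard [MOD 4] := by
  classical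
  have := Fintype.ofFinite Z
  exact par (h.mul h) h2 (by rw [rp_mul h h, map_mul, Int.units_mul_self])

end Parity

variable (G L) in
/-- A group without subgroups of index two stabilizing an oval. -/
structure Su (O : Set P) : Prop where
  ov : Ov L O
  st : ∀ g : G, St O g
  perf : ∀ (f : G →* ℤˣ) (g : G), f g = 1

variable (P L) in
/-- `g` is an involutory homology. -/
def Hm (g : G) : Prop := ∃ (c : P) (a : L), HD L g c a

theorem Hm.conj {g : G} (h : Hm P L g) (x : G) : Hm P L (x * g * x⁻¹) :=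
  let ⟨_, _, h⟩ := h; ⟨_, _, h.conj x⟩

theorem HD.fix_mul {w w' : G} {c c' : P} {a a' : L} (h : HD L w c a) (h' : HD L w' c' a')
    (h1 : w * w' ≠ 1) : ∃ (m : L) (y : P), ∀ p : P, (w * w') • p = p → p = y ∨ p ∈ m := by
  by_cases haa : a = a'
  · obtain ⟨y, hy⟩ := (h.ax.mul (haa ▸ h'.ax)).exists_centre
    exact ⟨a, y, fun p hp => fixed_point_cases h1 hy (h.ax.mul (haa ▸ h'.ax)) hp⟩
  by_cases hcc : c = c'
  · obtain ⟨m, hm⟩ := (h.cen.mul (hcc ▸ h'.cen)).exists_axis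
    exact ⟨m, c, fun p hp => fixed_point_cases h1 (h.cen.mul (hcc ▸ h'.cen)) hm hp⟩
  obtain ⟨y, hy1, hy2⟩ := exists_meet' (P := P) haa
  obtain ⟨m, hm1, hm2⟩ := exists_join L c c'
  refine ⟨m, y, fun p hp => ?_⟩
  have e : w • p = w' • p := by rw [← hp, mul_smul, h.smul_smul, ← mul_smul w, hp]
  by_cases h2 : w • p = p
  · rcases h.fix h2 with rfl | h3
    · exact Or.inr hm1
    rcases h'.fix (e ▸ h2) with rfl | h4
    · exact Or.inr hm2
    exact Or.inl (point_eq haa h3 h4 hy1 hy2)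
  · by_cases h3 : p = c
    · exact Or.inr (h3 ▸ hm1)
    by_cases h4 : p = c'
    · exact Or.inr (h4 ▸ hm2)
    obtain ⟨l, hl1, hl2⟩ := exists_join L p c
    obtain ⟨l', hl1', hl2'⟩ := exists_join L p c'
    obtain rfl : l = l' := line_eq h2 (smul_mem_of_fix (h.cen l hl2) hl1) hl1
      (e ▸ smul_mem_of_fix (h'.cen l' hl2') hl1') hl1'
    exact Or.inr (line_eq hcc hl2 hl2' hm1 hm2 ▸ hl1)

namespace Su

variable (H : Su L G O)
include H

theorem par' {g : G} (h2 : g * g = 1) : order P L + 1 ≡ (Fx O g).ncard [MOD 4] := by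
  classical
  have := Fintype.ofFinite O
  rw [← H.ov.card]
  exact par (H.st g) h2 (H.perf (MonoidHom.mk' (fun g => Equiv.Perm.sign (rp (H.st g)))
    fun a b => by rw [← map_mul, ← rp_mul]) g)

theorem mul {t u : G} (ht : Hm P L t) (hu : Hm P L u) (hc : t * u = u * t) (hne : t ≠ u) :
    Hm P L (t * u) :=
  let ⟨_, _, h⟩ := ht; let ⟨_, _, h'⟩ := hu
  let ⟨_, _, h3, _⟩ := h.mul H.ov h' (H.st t) (H.st u) hc hne; ⟨_, _, h3⟩

theorem baer {g : G} (h2 : g * g = 1) (h1 : g ≠ 1) (h : ¬ Hm P L g) :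
    order P L % 4 = 1 ∧ 3 ≤ (Fx O g).ncard := by
  have hp := (planar_or_axis P L h2 h1).resolve_right fun ⟨a, ha⟩ =>
    h ((exists_hd H.ov.odd h2 h1 ha).imp fun _ h => ⟨a, h⟩)
  letI := fixPlane hp
  have h3 := order_eq_sq h2 h1 hp
  have h4 : order P L % 4 = 1 := by
    have := H.ov.odd
    rw [h3] at this ⊢
    obtain ⟨k, hk⟩ := (Nat.odd_pow_iff two_ne_zero).1 this
    rw [hk, show (2 * k + 1) ^ 2 = 4 * (k * k + k) + 1 by ring]
    omega
  have h5 := H.par' h2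
  unfold Nat.ModEq at h5
  obtain ⟨A, hA⟩ := Set.nonempty_of_ncard_ne_zero (s := Fx O g) (by omega)
  have h6 := H.ov.card_fx (H.st g) hp hA
  have := one_lt_order (FP {g} P) (FP {g} L)
  exact ⟨h4, by omega⟩

theorem baer_mul {a b : G} (ha2 : a * a = 1) (ha1 : a ≠ 1) (ha : ¬ Hm P L a) (hb2 : b * b = 1)
    (hb1 : b ≠ 1) (hb : ¬ Hm P L b) (hc : a * b = b * a) (hne : a ≠ b) : Hm P L (a * b) := by
  by_contra h
  have h2 : a * b * (a * b) = 1 := by
    rw [mul_assoc, ← mul_assoc b, ← hc, mul_assoc a, hb2, mul_one, ha2]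
  have h1 : a * b ≠ 1 := fun e =>
    hne (by rw [eq_inv_of_mul_eq_one_left e, inv_eq_of_mul_eq_one_right hb2])
  exact H.ov.not_four (H.st a) (H.st b) ha2 hb2 hc ha1 hb1 h1 (H.baer ha2 ha1 ha).2
    (H.baer hb2 hb1 hb).2 (H.baer h2 h1 h).2

theorem fix_two (hn : order P L % 4 = 1) {t : G} (ht : Hm P L t) :
    ∃ A B, A ≠ B ∧ Fx O t = {A, B} := by
  obtain ⟨c, a, h⟩ := ht
  have h1 : (Fx O t).ncard ≤ 2 := h.ncard_fix_le H.ov (H.st t)
  have h2 := H.par' h.sq
  unfold Nat.ModEq at h2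
  exact Set.ncard_eq_two.1 (by omega)

theorem mod_eq_one {t : G} (ht : Hm P L t) {A : P} (hA : A ∈ Fx O t) : order P L % 4 = 1 := by
  obtain ⟨c, a, h⟩ := ht
  have h1 : (Fx O t).ncard ≤ 2 := h.ncard_fix_le H.ov (H.st t)
  have h2 := H.par' h.sq
  have h3 := Set.ncard_ne_zero_of_mem hA
  obtain ⟨k, hk⟩ := H.ov.odd
  unfold Nat.ModEq at h2
  omega

theorem eq_of_fix {t u : G} (ht : Hm P L t) (hu : Hm P L u) {A B : P} (hAB : A ≠ B)
    (h1 : A ∈ Fx O t) (h2 : B ∈ Fx O t) (h3 : A ∈ Fx O u) (h4 : B ∈ Fx O u) : t = u :=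
  let ⟨_, _, h⟩ := ht; let ⟨_, _, h'⟩ := hu
  h.eq_of_fix H.ov h' (H.st t) (H.st u) h1.1 h2.1 hAB h1.2 h2.2 h3.2 h4.2

theorem smul_mem_fx {x u : G} (hc : x * u = u * x) {p : P} (hp : p ∈ Fx O u) : x • p ∈ Fx O u :=
  ⟨(H.st x p).2 hp.1, by rw [← mul_smul, ← hc, mul_smul, hp.2]⟩

theorem sq_fix {x u : G} (hc : x * u = u * x) {A B : P} (h : Fx O u = {A, B}) {p : P}
    (hp : p ∈ Fx O u) : (x * x) • p = p := by
  have h1 := H.smul_mem_fx hc hp
  have h2 := H.smul_mem_fx hc h1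
  rw [mul_smul]
  by_contra h3
  have h4 : x • x • p ≠ x • p := fun e => h3 (by rw [e]; exact smul_left_cancel x e)
  have h5 : x • p ≠ p := fun e => h3 (by rw [e, e])
  rw [h] at hp h1 h2
  simp only [Set.mem_insert_iff, Set.mem_singleton_iff] at hp h1 h2
  grind

/-- No `ℤ₄ × ℤ₂` whose involutions are homologies. -/
theorem not_sq {a u : G} (ht : Hm P L (a * a)) (hu : Hm P L u) (hc : a * u = u * a) :
    a * a = u := by
  by_contra hne
  by_cases hn : order P L % 4 = 1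
  · obtain ⟨A, B, hAB, h⟩ := H.fix_two hn hu
    have hA : A ∈ Fx O u := h ▸ Or.inl rfl
    have hB : B ∈ Fx O u := h ▸ Or.inr rfl
    exact hne (H.eq_of_fix ht hu hAB ⟨hA.1, H.sq_fix hc h hA⟩ ⟨hB.1, H.sq_fix hc h hB⟩ hA hB)
  obtain ⟨c, l, ht⟩ := ht
  obtain ⟨d, b, hu⟩ := hu
  have hc2 : a * a * u = u * (a * a) := by rw [mul_assoc, hc, ← mul_assoc, hc, mul_assoc]
  obtain ⟨e, k, he, h1, h2, -, -⟩ := ht.mul H.ov hu (H.st _) (H.st _) hc2 hne
  have h3 := hu.mem_of_comm H.ov ht (H.st _) (H.st _) hc2.symm (Ne.symm hne)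
  have h4 : a • b = b := hu.comm_a hc
  have h5 : a • c = c := ht.comm_c (mul_assoc a a a).symm
  have h6 : a • e = e := he.comm_c (by rw [mul_assoc (a * a), ← hc]; group)
  have h7 := par_sq (Z := {p | p ∈ b ∧ p ≠ c ∧ p ≠ e}) (a := a) (fun p => by
    simp only [Set.mem_setOf_eq]
    conv_lhs => rw [← h4, ← h5, ← h6]
    rw [Coll.mem_iff]
    simp) ht.sq
  have h8 : Fx {p | p ∈ b ∧ p ≠ c ∧ p ≠ e} (a * a) = ∅ := Set.eq_empty_of_forall_notMem
    fun p hp => (ht.fix hp.2).elim hp.1.2.1 fun h => hp.1.2.2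
      (point_eq (fun e : l = b => ht.nm (e ▸ h3)) h hp.1.1 h1 h2)
  have h9 := ncard_pts_ne2 h3 h2 fun h => ht.nm (h ▸ h1)
  rw [h8, Set.ncard_empty] at h7
  unfold Nat.ModEq at h7
  omega

/-- Two homologies are centralized by at most one further homology. -/
theorem eq_of_comm {z z' w w' : G} (hz : Hm P L z) (hz' : Hm P L z') (hw : Hm P L w)
    (hw' : Hm P L w') (hne : z ≠ z') (h1 : z * w = w * z) (h2 : z' * w = w * z')
    (h3 : z * w' = w' * z) (h4 : z' * w' = w' * z') (n1 : z ≠ w) (n2 : z' ≠ w) (n3 : z ≠ w')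
    (n4 : z' ≠ w') : w = w' := by
  obtain ⟨c, a, hz⟩ := hz
  obtain ⟨c', a', hz'⟩ := hz'
  obtain ⟨d, b, hw⟩ := hw
  obtain ⟨d', b', hw'⟩ := hw'
  have m1 := hz.mem_of_comm H.ov hw (H.st _) (H.st _) h1 n1
  by_cases haa : a = a'
  · subst haa
    obtain ⟨e, k, he, e1, e2, -, -⟩ := hz.mul H.ov hw (H.st _) (H.st _) h1 n1
    obtain ⟨e', k', he', e3, e4, -, -⟩ := hz'.mul H.ov hw (H.st _) (H.st _) h2 n2
    obtain rfl := point_eq (fun e : a = b => hw.nm (e ▸ m1)) e1 e2 e3 e4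
    exact absurd (mul_right_cancel (he.eq_of_centre H.ov he' (H.st _) (H.st _))) hne
  · obtain rfl := point_eq haa m1 (hz'.mem_of_comm H.ov hw (H.st _) (H.st _) h2 n2)
      (hz.mem_of_comm H.ov hw' (H.st _) (H.st _) h3 n3)
      (hz'.mem_of_comm H.ov hw' (H.st _) (H.st _) h4 n4)
    exact hw.eq_of_centre H.ov hw' (H.st _) (H.st _)

/-- A product of two homologies of odd prime order centralizes no four-group of homologies. -/
theorem not_cent {w w' t u : G} (hw : Hm P L w) (hw' : Hm P L w') (ht : Hm P L t) (hu : Hm P L u)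
    (hc : t * u = u * t) (hne : t ≠ u) {p : ℕ} (hp : p.Prime) (hp2 : p ≠ 2) (h1 : w * w' ≠ 1)
    (hx : (w * w') ^ p = 1) (hxt : w * w' * t = t * (w * w')) (hxu : w * w' * u = u * (w * w')) :
    False := by
  obtain ⟨_, _, hw⟩ := hw
  obtain ⟨_, _, hw'⟩ := hw'
  obtain ⟨m, y, hm⟩ := hw.fix_mul hw' h1
  generalize w * w' = x at *
  have hit : ∀ q : P, (x • ·)^[p] q = q := fun q => by rw [smul_iterate_apply, hx, one_smul]
  have hp3 : 3 ≤ p := by have := hp.two_le; omega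
  have key : ∀ {t u : G} {c d : P} {a b : L}, HD L t c a → HD L u d b → t * u = u * t → t ≠ u →
      x * t = t * x → x * u = u * x → a ≠ m → order P L + 1 ≡ 2 [MOD p] := by
    intro t u c d a b ht hu hc hne hxt hxu ham
    obtain ⟨e, k, he, e1, e2, -, -⟩ := ht.mul H.ov hu (H.st _) (H.st _) hc hne
    obtain ⟨z, hz1, hz2⟩ := exists_meet' (P := P) ham
    have h2 := ncard_modEq_fixed (Z := {q : P | q ∈ a}) (f := (x • ·)) hp
      (fun q (hq : q ∈ a) => (smul_mem_of_fix (ht.comm_a hxt) hq : x • q ∈ a)) fun q _ => hit q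
    have h3 := Set.ncard_le_ncard (s := {q | q ∈ {q : P | q ∈ a} ∧ x • q = q}) (t := {y, z})
      fun q hq => (hm q hq.2).imp id fun h => point_eq ham hq.1 h hz1 hz2
    have h4 := Set.ncard_le_ncard (t := {q | q ∈ {q : P | q ∈ a} ∧ x • q = q}) (s := {d, e}) (by
      rintro _ (rfl | rfl)
      · exact ⟨(ht.mem_of_comm H.ov hu (H.st _) (H.st _) hc hne :), hu.comm_c hxu⟩
      · exact ⟨e1, he.comm_c (by rw [← mul_assoc, hxt, mul_assoc, hxu, mul_assoc])⟩)
    rw [Set.ncard_pair fun h : d = e => hu.nm (h ▸ e2)] at h4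
    have h5 := Set.ncard_insert_le y ({z} : Set P)
    rw [Set.ncard_singleton] at h5
    rwa [ncard_pts, le_antisymm (h3.trans h5) h4] at h2
  have h2 : order P L + 1 ≡ 2 [MOD p] := by
    obtain ⟨c, a, ht⟩ := ht
    obtain ⟨d, b, hu⟩ := hu
    by_cases ham : a = m
    · exact key hu ht hc.symm hne.symm hxu hxt fun e =>
        hu.nm (e ▸ ham ▸ ht.mem_of_comm H.ov hu (H.st _) (H.st _) hc hne)
    · exact key ht hu hc hne hxt hxu ham
  have h3 : O.ncard ≡ (Fx O x).ncard [MOD p] := ncard_modEq_fixed (f := (x • ·)) hp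
    (fun q hq => (H.st x q).2 hq) fun q _ => hit q
  have h4 : (Fx O x).ncard ≤ 3 := H.ov.ncard_le_three fun q hq => ⟨hq.1, hm q hq.2⟩
  rw [H.ov.card] at h3
  have h5 : (Fx O x).ncard = 2 := by
    have h6 := h2.symm.trans h3
    generalize (Fx O x).ncard = k at *
    interval_cases k
    · exact absurd (Nat.le_of_dvd two_pos (Nat.modEq_zero_iff_dvd.1 h6)) (by omega)
    · exact absurd (Nat.le_of_dvd one_pos ((Nat.modEq_iff_dvd' (by omega)).1 h6.symm)) (by omega)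
    · rfl
    · exact absurd (Nat.le_of_dvd one_pos ((Nat.modEq_iff_dvd' (by omega)).1 h6)) (by omega)
  obtain ⟨A, B, hAB, h6⟩ := Set.ncard_eq_two.1 h5
  have hA : A ∈ Fx O x := h6 ▸ Or.inl rfl
  have hB : B ∈ Fx O x := h6 ▸ Or.inr rfl
  have hn : order P L % 4 = 1 := by
    have a1 := H.smul_mem_fx hxt.symm hA
    have a2 := H.smul_mem_fx hxu.symm hA
    rw [h6] at a1 a2
    rcases a1 with a1 | a1
    · exact H.mod_eq_one ht ⟨hA.1, a1⟩
    rcases a2 with a2 | a2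
    · exact H.mod_eq_one hu ⟨hA.1, a2⟩
    obtain ⟨_, _, h⟩ := id ht
    exact H.mod_eq_one (H.mul ht hu hc hne) ⟨hA.1, by rw [mul_smul, a2, ← a1, h.smul_smul]⟩
  have h7 : ∀ {t : G}, Hm P L t → x * t = t * x → A ∈ Fx O t ∧ B ∈ Fx O t := by
    intro t ht hxt
    obtain ⟨C, D, hCD, h⟩ := H.fix_two hn ht
    have : Fx O t = Fx O x := Set.eq_of_subset_of_ncard_le (fun q hq => ⟨hq.1, by
      obtain ⟨k, rfl⟩ := hp.odd_of_ne_two hp2
      have h8 : ∀ j : ℕ, (x * x) ^ j • q = q := fun j =>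
        MulAction.mem_stabilizer_iff.1 (pow_mem (H.sq_fix hxt h hq) j)
      have := hit q
      rwa [smul_iterate_apply, pow_succ', pow_mul, sq, mul_smul, h8] at this⟩)
      (by rw [h5, h, Set.ncard_pair hCD])
    rw [this]
    exact ⟨hA, hB⟩
  exact hne (H.eq_of_fix ht hu hAB (h7 ht hxt).1 (h7 ht hxt).2 (h7 hu hxu).1 (h7 hu hxu).2)

end Su

end Cfsg.Agent.Oval
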