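import Mathlib
import Cfsg.Agent.Inv.IsolatedIff
import Cfsg.Agent.Inv.RankOne

/-! Two-groups with a distinguished class of involutions ("homologies"): the dihedral subgroup. -/

set_option autoImplicit false

namespace Cfsg.Agent.Oval
open Subgroup

variable {S Ω : Type*} [Group S] [MulAction S Ω]

/-- An involution outside the distinguished set. -/
def Br (H : S → Prop) (a : S) : Prop := a * a = 1 ∧ a ≠ 1 ∧ ¬ H a

variable (Ω) in
/-- The properties of homologies when there are Baer involutions. -/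
structure Ax (H : S → Prop) : Prop where
  sq : ∀ {t}, H t → t * t = 1
  ne : ∀ {t}, H t → t ≠ 1
  conj : ∀ {t}, H t → ∀ g, H (g * t * g⁻¹)
  mul : ∀ {t u}, H t → H u → t * u = u * t → t ≠ u → H (t * u)
  baer : ∀ {a b}, Br H a → Br H b → a * b = b * a → a ≠ b → H (a * b)
  fix : ∀ {t}, H t → ∃ A B : Ω, A ≠ B ∧ ∀ p, t • p = p ↔ p = A ∨ p = B
  eq : ∀ {t u} {A B : Ω}, H t → H u → A ≠ B → t • A = A → t • B = B → u • A = A → u • B = B → t = u
  q8 : ∀ {r i j : S} {A B C : Ω}, r ≠ 1 → r * r = 1 → i * i = r → j * j = r →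
    i * j * (i * j) = r → A ≠ B → A ≠ C → B ≠ C → i • A = A → i • B = B → i • C = C →
    j • A = A → j • B = B → j • C = C → False

theorem Ax.br_conj {H : S → Prop} (X : Ax Ω H) {a : S} (h : Br H a) (g : S) :
    Br H (g * a * g⁻¹) :=
  ⟨by rw [conj_mul, h.1]; simp, fun e => h.2.1 (by simpa using e),
    fun e => h.2.2 (by simpa [mul_assoc] using X.conj e g⁻¹)⟩

section Two
variable {v x : S} {C D : Ω} (hv : ∀ p, v • p = p ↔ p = C ∨ p = D) (hx : x * v = v * x)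
include hv hx

theorem two_perm {p : Ω} (hp : p = C ∨ p = D) : x • p = C ∨ x • p = D :=
  (hv _).1 (by rw [← mul_smul, ← hx, mul_smul, (hv p).2 hp])

theorem two_fix (hCD : C ≠ D) (h : x • C = C) : x • D = D :=
  (two_perm hv hx (Or.inr rfl)).resolve_left fun e => hCD (smul_left_cancel x (h.trans e.symm))

theorem two_swap (hCD : C ≠ D) (h : x • C = D) : x • D = C :=
  (two_perm hv hx (Or.inr rfl)).resolve_right fun e => hCD (smul_left_cancel x (h.trans e.symm))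

theorem two_sq (hCD : C ≠ D) : (x * x) • C = C := by
  rw [mul_smul]
  rcases two_perm hv hx (Or.inl rfl) with h | h
  · rw [h, h]
  · rw [h, two_swap hv hx hCD h]

end Two

theorem zpow_eq_of_odd (hS : IsPGroup 2 S) {g : S} {m : ℤ} (hm : Odd m)
    (h : g ^ m * g ^ m = 1) : g ^ m = g := by
  obtain ⟨j, rfl⟩ := hm
  obtain ⟨k, hk⟩ := IsPGroup.iff_orderOf.1 hS (g ^ (2 : ℤ))
  have h1 : (g ^ (2 : ℤ)) ^ (2 * j + 1) = 1 := by rw [← h, ← zpow_mul, ← zpow_add]; ring_nf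
  rw [← orderOf_dvd_iff_zpow_eq_one, hk] at h1
  have h2 : g ^ (2 : ℤ) = 1 := by
    rcases k with _ | k
    · exact orderOf_eq_one_iff.1 hk
    · have := (Dvd.intro (2 ^ k) (by push_cast; ring) : (2 : ℤ) ∣ ((2 ^ (k + 1) : ℕ) : ℤ)).trans h1
      omega
  rw [zpow_add, zpow_mul, h2, one_zpow, one_mul, zpow_one]

theorem even_orderOf (hS : IsPGroup 2 S) {g : S} (h : g ≠ 1) : Even (orderOf g) := by
  obtain ⟨_ | k, hk⟩ := IsPGroup.iff_orderOf.1 hS g
  · exact absurd (orderOf_eq_one_iff.1 hk) h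
  · exact ⟨2 ^ k, by rw [hk]; ring⟩

theorem smul_of_mem_zpowers {g y : S} {A : Ω} (h : g • A = A) (hy : y ∈ zpowers g) : y • A = A :=
  (zpowers_le.2 (MulAction.mem_stabilizer_iff.2 h) : zpowers g ≤ MulAction.stabilizer S A) hy

/-- A central homology `t` and another homology `u` of a `2`-group. -/
structure Cf (H : S → Prop) (t u : S) (A B A' B' : Ω) : Prop where
  ax : Ax Ω H
  pg : IsPGroup 2 S
  ht : H t
  hu : H u
  ne : u ≠ t
  cen : ∀ s, s * t = t * s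
  AB : A ≠ B
  AB' : A' ≠ B'
  ft : ∀ p, t • p = p ↔ p = A ∨ p = B
  fu : ∀ p, u • p = p ↔ p = A' ∨ p = B'

/-- The elements `y` of the point stabilizer such that `u y` is a homology. -/
def Xs (H : S → Prop) (u : S) (A : Ω) (y : S) : Prop := y • A = A ∧ H (u * y)

namespace Cf

variable {H : S → Prop} {t u : S} {A B A' B' : Ω} (c : Cf H t u A B A' B')
include c

theorem tA : t • A = A := (c.ft A).2 (Or.inl rfl)

theorem uu : u * u = 1 := c.ax.sq c.hu

theorem tt : t * t = 1 := c.ax.sq c.ht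

theorem ui : u⁻¹ = u := inv_eq_of_mul_eq_one_right c.uu

theorem eq_t {v : S} (hv : H v) (h : v • A = A) : v = t :=
  c.ax.eq hv c.ht c.AB h (two_fix c.ft (c.cen v) c.AB h) c.tA ((c.ft B).2 (Or.inr rfl))

theorem swap {s : S} (h : s • A ≠ A) : s • A = B :=
  (two_perm c.ft (c.cen s) (Or.inl rfl)).resolve_left h

theorem mul_fix {v w : S} (hv : v • A ≠ A) (hw : w • A ≠ A) : (v * w) • A = A := by
  rw [mul_smul, c.swap hw, two_swap c.ft (c.cen v) c.AB (c.swap hv)]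

theorem uA : u • A ≠ A := fun h => c.ne (c.eq_t c.hu h)

theorem tA' : t • A' ≠ A' := fun h =>
  c.ne (c.ax.eq c.hu c.ht c.AB' ((c.fu _).2 (Or.inl rfl)) ((c.fu _).2 (Or.inr rfl)) h
    (two_fix c.fu (c.cen u).symm c.AB' h))

theorem mul_mem {v w z : S} (hv : H v) (hw : H w) (hz : z ∈ zpowers (v * w)) : H (v * z) := by
  obtain ⟨y, -, h | h⟩ := Inv.mul_zpowers_conj (c.ax.sq hv) (c.ax.sq hw) hz <;> rw [h]
  exacts [c.ax.conj hv y, c.ax.conj hw y]

theorem eq_of_mem {r : S} (hr : r * u = u * r) (h : t ∈ zpowers r) : r = t := by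
  obtain ⟨m, hm⟩ := mem_zpowers_iff.1 h
  rcases Int.even_or_odd' m with ⟨k, rfl | rfl⟩
  · refine absurd (smul_of_mem_zpowers (two_sq c.fu hr c.AB') ⟨k, ?_⟩) c.tA'
    rw [← hm, zpow_mul, zpow_two]
  · rw [← hm, zpow_eq_of_odd c.pg ⟨k, rfl⟩ (by rw [hm, c.tt])]

theorem xs_of {v : S} (hv : H v) (h : v ≠ t) : Xs H u A (u * v) :=
  ⟨c.mul_fix c.uA fun e => h (c.eq_t hv e), by rwa [← mul_assoc, c.uu, one_mul]⟩

theorem xs_ne {y : S} (h : Xs H u A y) : u * y ≠ t := fun e =>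
  c.uA (by rw [← h.1, ← mul_smul, e, h.1, c.tA])

theorem xs_inv {y : S} (h : Xs H u A y) : y * u = u * y⁻¹ := by
  have := c.ax.sq h.2
  rw [mul_assoc, mul_eq_one_iff_inv_eq, c.ui, ← mul_assoc, ← mul_inv_eq_iff_eq_mul] at this
  exact this.symm

theorem xs_mem {x y : S} (h : Xs H u A x) (hy : y ∈ zpowers x) : Xs H u A y :=
  ⟨smul_of_mem_zpowers h.1 hy, c.mul_mem c.hu h.2 (by rwa [← mul_assoc, c.uu, one_mul])⟩

theorem xs_t : Xs H u A t := ⟨c.tA, c.ax.mul c.hu c.ht (c.cen u) c.ne⟩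

variable [Finite S]

theorem t_mem {v w : S} (hv : H v) (hw : H w) (h1 : v ≠ t) (h2 : w ≠ t) (h : v * w ≠ 1) :
    t ∈ zpowers (v * w) := by
  obtain ⟨z, hz, ho, hc, -⟩ := Inv.exists_central_involution_of_even (c.ax.sq hv) (c.ax.sq hw)
    (even_orderOf c.pg h)
  have h3 := c.ax.mul hv (c.mul_mem hv hw hz) (by rw [mul_assoc, hc.eq])
    fun e => Inv.ne_one_of_orderOf_two ho (by simpa using e)
  rw [← mul_assoc, c.ax.sq hv, one_mul] at h3
  rwa [← c.eq_t h3 (smul_of_mem_zpowers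
    (c.mul_fix (fun e => h1 (c.eq_t hv e)) fun e => h2 (c.eq_t hw e)) hz)]

theorem xs_t_mem {y : S} (h : Xs H u A y) (h1 : y ≠ 1) : t ∈ zpowers y := by
  have e : u * (u * y) = y := by rw [← mul_assoc, c.uu, one_mul]
  simpa [e] using c.t_mem c.hu h.2 c.ne (c.xs_ne h) (by rwa [e])

theorem xs_cyc (j : ℕ) : ∀ x y : S, Xs H u A x → Xs H u A y → orderOf x = 2 ^ j →
    orderOf y = 2 ^ j → y ∈ zpowers x := by
  induction j with
  | zero => intro x y _ _ _ hy; rw [orderOf_eq_one_iff.1 hy]; exact one_mem _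
  | succ j ih =>
  intro x y hx hy ox oy
  have ho : ∀ z : S, orderOf z = 2 ^ (j + 1) → orderOf (z ^ 2) = 2 ^ j := fun z hz => by
    rw [orderOf_pow_of_dvd two_ne_zero (by rw [hz]; exact Dvd.intro_left _ rfl), hz, pow_succ,
      Nat.mul_div_cancel _ two_pos]
  obtain ⟨k, hk⟩ := mem_zpowers_iff.1 (ih _ _ (c.xs_mem hx (npow_mem_zpowers x 2))
    (c.xs_mem hy (npow_mem_zpowers y 2)) (ho x ox) (ho y oy))
  have hx' := c.xs_mem hx (zpow_mem_zpowers x k)
  have h1 : x ^ k * x ^ k = y * y := by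
    rw [← sq y, ← hk, ← zpow_natCast, ← zpow_mul, ← zpow_add]; congr 1; push_cast; ring
  have h2 := (c.xs_mem hx' (inv_mem (mem_zpowers _)))
  have h3 := (c.xs_mem hy (inv_mem (mem_zpowers _)))
  have h4 : u * (x ^ k)⁻¹ * (u * y⁻¹) = x ^ k * y⁻¹ := by
    rw [← c.xs_inv hx', mul_assoc, ← mul_assoc u, c.uu, one_mul]
  by_cases h5 : x ^ k * y⁻¹ = 1
  · rw [← mul_inv_eq_one.1 h5]; exact zpow_mem_zpowers x k
  have h6 := c.t_mem h2.2 h3.2 (c.xs_ne h2) (c.xs_ne h3) (by rwa [h4])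
  rw [h4] at h6
  have h7 := c.eq_of_mem (by
    rw [mul_assoc, c.xs_inv h3, inv_inv, ← mul_assoc, c.xs_inv hx', mul_assoc, mul_right_inj,
      inv_mul_eq_iff_eq_mul, ← mul_assoc, h1, mul_inv_cancel_right]) h6
  have h8 := c.xs_t_mem hx (fun e => by
    rw [e, orderOf_one] at ox
    exact absurd ox.symm (by simp))
  rw [show y = t⁻¹ * x ^ k by rw [← h7]; group]
  exact Subgroup.mul_mem _ (inv_mem h8) (zpow_mem_zpowers x k)

theorem exists_gen : ∃ x : S, ∀ y, Xs H u A y ↔ y ∈ zpowers x := by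
  obtain ⟨x, hx, hm⟩ := Set.exists_max_image {y | Xs H u A y} orderOf (Set.toFinite _) ⟨t, c.xs_t⟩
  refine ⟨x, fun y => ⟨fun hy => ?_, c.xs_mem hx⟩⟩
  obtain ⟨J, hJ⟩ := IsPGroup.iff_orderOf.1 c.pg x
  obtain ⟨j, hj⟩ := IsPGroup.iff_orderOf.1 c.pg y
  have h1 := hm y hy
  rw [hJ, hj, Nat.pow_le_pow_iff_right one_lt_two] at h1
  obtain ⟨k, rfl⟩ := Nat.exists_eq_add_of_le h1
  refine zpowers_le.2 (npow_mem_zpowers x (2 ^ k))
    (c.xs_cyc j _ y (c.xs_mem hx (npow_mem_zpowers x _)) hy ?_ hj)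
  rw [orderOf_pow_of_dvd (by positivity) (by rw [hJ, pow_add]; exact Dvd.intro_left _ rfl), hJ,
    pow_add, Nat.mul_div_cancel _ (by positivity)]

/-- The complement. -/
theorem exists_r : ∃ r : S, ∀ g, g ∈ zpowers r ↔ g • A = A ∧ g • A' = A' ∧ g * u = u * g := by
  let R : Subgroup S := MulAction.stabilizer S A ⊓ MulAction.stabilizer S A' ⊓ centralizer {u}
  have hR : ∀ g, g ∈ R ↔ g • A = A ∧ g • A' = A' ∧ g * u = u * g := fun g => by
    simp only [R, mem_inf, MulAction.mem_stabilizer_iff, mem_centralizer_singleton_iff, and_assoc]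
  have h1 : ∀ g ∈ R, ¬ H g := fun g hg h =>
    c.tA' (c.eq_t h ((hR g).1 hg).1 ▸ ((hR g).1 hg).2.1)
  have h2 : ∀ a ∈ R, ∀ b ∈ R, orderOf a = 2 → orderOf b = 2 → a * b = b * a → a = b :=
    fun a ha b hb oa ob hc => by_contra fun hne => h1 _ (R.mul_mem ha hb) (c.ax.baer
      ⟨Inv.mul_self_of_orderOf_two oa, Inv.ne_one_of_orderOf_two oa, h1 a ha⟩
      ⟨Inv.mul_self_of_orderOf_two ob, Inv.ne_one_of_orderOf_two ob, h1 b hb⟩ hc hne)
  rcases Inv.cyclic_or_quaternion_of_unique_involution' (T := R) (c.pg.to_subgroup R)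
    (fun a ha b hb oa ob => by
      by_cases h : a * b = 1
      · rw [eq_inv_of_mul_eq_one_left h, Inv.inv_of_orderOf_two ob]
      obtain ⟨z, hz, oz, h3, h4⟩ := Inv.exists_central_involution_of_even
        (Inv.mul_self_of_orderOf_two oa) (Inv.mul_self_of_orderOf_two ob) (even_orderOf c.pg h)
      have h5 := zpowers_le.2 (R.mul_mem ha hb) hz
      exact (h2 z h5 a ha oz oa h3).symm.trans (h2 z h5 b hb oz ob h4)) with h | ⟨n, ⟨e⟩⟩
  · obtain ⟨r, hr⟩ := (R.isCyclic_iff_exists_zpowers_eq_top).1 h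
    exact ⟨r, fun g => by rw [hr, hR]⟩
  · exfalso
    let f : QuaternionGroup (2 ^ (n + 1)) →* S := R.subtype.comp e.symm.toMonoidHom
    have hf : ∀ q, f q ∈ R := fun q => (e.symm q).2
    have hA : A' ≠ A := fun e => c.tA' (e ▸ c.tA)
    have hB : A' ≠ B := fun e => c.tA' (e ▸ (c.ft B).2 (Or.inr rfl))
    have h0 : ((2 ^ (n + 1) : ℕ) : ZMod (2 * 2 ^ (n + 1))) + (2 ^ (n + 1) : ℕ) = 0 := by
      rw [← Nat.cast_add, ← two_mul, ZMod.natCast_self]
    refine c.ax.q8 (r := f (.a (2 ^ (n + 1) : ℕ))) (i := f (.xa 0)) (j := f (.xa (2 ^ n : ℕ)))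
      (fun h => ?_) ?_ ?_ ?_ ?_ c.AB hA.symm hB.symm ((hR _).1 (hf _)).1
      (two_fix c.ft (c.cen _) c.AB ((hR _).1 (hf _)).1) ((hR _).1 (hf _)).2.1 ((hR _).1 (hf _)).1
      (two_fix c.ft (c.cen _) c.AB ((hR _).1 (hf _)).1) ((hR _).1 (hf _)).2.1
    · have h3 := (Subtype.val_injective.comp e.symm.injective) (h.trans (map_one f).symm)
      rw [QuaternionGroup.one_def, QuaternionGroup.a.injEq, ZMod.natCast_eq_zero_iff] at h3
      have := Nat.le_of_dvd (by positivity) h3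
      have : 0 < 2 ^ (n + 1) := by positivity
      omega
    · rw [← map_mul, QuaternionGroup.a_mul_a, h0, ← QuaternionGroup.one_def, map_one]
    · rw [← map_mul, QuaternionGroup.xa_mul_xa, add_sub_cancel_right]
    · rw [← map_mul, QuaternionGroup.xa_mul_xa, add_sub_cancel_right]
    · rw [← map_mul, ← map_mul, QuaternionGroup.xa_mul_xa, QuaternionGroup.a_mul_a, sub_zero,
        add_add_add_comm, h0, zero_add, ← Nat.cast_add,
        show 2 ^ n + 2 ^ n = 2 ^ (n + 1) by ring]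

end Cf

end Cfsg.Agent.Oval
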