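import Mathlib
import Cfsg.Agent.Oval.Str

/-! Two-groups with a distinguished class of involutions: the quotient by the dihedral subgroup. -/

set_option autoImplicit false

namespace Cfsg.Agent.Oval
open Subgroup
open scoped commutatorElement

variable {S Ω : Type*} [Group S] [MulAction S Ω]

/-- The extension of `K` by a normalizing element with square in `K`. -/
def ext2 (K : Subgroup S) (c : S) (hc : c * c ∈ K) (hn : ∀ k ∈ K, c * k * c⁻¹ ∈ K) :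
    Subgroup S where
  carrier := {g | g ∈ K ∨ c * g ∈ K}
  one_mem' := Or.inl K.one_mem
  mul_mem' := by
    rintro a b (ha | ha) (hb | hb)
    · exact Or.inl (K.mul_mem ha hb)
    · exact Or.inr (by simpa [mul_assoc] using K.mul_mem (hn a ha) hb)
    · exact Or.inr (by simpa [mul_assoc] using K.mul_mem ha hb)
    · exact Or.inl (by simpa [mul_assoc] using K.mul_mem (K.mul_mem (K.inv_mem hc) (hn _ ha)) hb)
  inv_mem' := by
    rintro a (ha | ha)
    · exact Or.inl (K.inv_mem ha)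
    · exact Or.inr (by simpa [mul_assoc] using K.mul_mem (hn _ (K.inv_mem ha)) hc)

/-- `g` fixes the class of `u` in the dihedral group. -/
def Sq (x u g : S) : Prop := ∃ k : ℤ, g * u * g⁻¹ = u * x ^ (2 * k)

/-- The full configuration. -/
structure Cg (H : S → Prop) (t u x r : S) (A B A' B' : Ω) : Prop extends Cf H t u A B A' B' where
  gen : ∀ y, Xs H u A y ↔ y ∈ zpowers x
  rg : ∀ g, g ∈ zpowers r ↔ g • A = A ∧ g • A' = A' ∧ g * u = u * g

namespace Cg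

variable {H : S → Prop} {t u x r : S} {A B A' B' : Ω} (c : Cg H t u x r A B A' B')
include c

theorem t_mem' : t ∈ zpowers x := (c.gen t).1 c.xs_t

theorem even_of {k : ℤ} (h : x ^ k = 1) : Even k := by
  by_contra hk
  have h1 := zpow_eq_of_odd c.pg (Int.not_even_iff_odd.1 hk) (by rw [h, one_mul])
  have h2 := c.t_mem'
  rw [← h1, h, zpowers_one_eq_bot] at h2
  exact c.ax.ne c.ht h2

theorem inv {y : S} (hy : y ∈ zpowers x) : y * u = u * y⁻¹ := c.xs_inv ((c.gen y).2 hy)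

theorem exists_eq {v : S} (hv : H v) (h : v ≠ t) : ∃ k : ℤ, v = u * x ^ k := by
  obtain ⟨k, hk⟩ := mem_zpowers_iff.1 ((c.gen _).1 (c.xs_of hv h))
  exact ⟨k, by rw [hk, ← mul_assoc, c.uu, one_mul]⟩

theorem conj_ne {v : S} (h : v ≠ t) (s : S) : s * v * s⁻¹ ≠ t := fun e =>
  h (mul_left_cancel (a := s) (by rw [c.cen, ← e, inv_mul_cancel_right]))

theorem yy (g : S) : ∃ k : ℤ, g * u * g⁻¹ = u * x ^ k :=
  c.exists_eq (c.ax.conj c.hu g) (c.conj_ne c.ne g)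

theorem pw' (s : S) : ∃ m : ℤ, ∀ y ∈ zpowers x, s * y * s⁻¹ = y ^ m := by
  have hx := (c.gen x).2 (mem_zpowers x)
  obtain ⟨a, ha⟩ := c.yy s
  obtain ⟨b, hb⟩ := c.exists_eq (c.ax.conj hx.2 s) (c.conj_ne (c.xs_ne hx) s)
  refine ⟨b - a, ?_⟩
  rintro _ ⟨k, rfl⟩
  rw [← conj_mul, ha, mul_assoc, mul_right_inj, ← eq_inv_mul_iff_mul_eq, ← zpow_neg,
    ← zpow_add] at hb
  simp only
  rw [← conj_zpow, hb, ← zpow_mul, ← zpow_mul]
  congr 1; ring

theorem pw (s : S) : ∃ m : ℤ, Odd m ∧ ∀ y ∈ zpowers x, s * y * s⁻¹ = y ^ m := by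
  obtain ⟨m, hm⟩ := c.pw' s
  obtain ⟨n, hn⟩ := c.pw' s⁻¹
  have h := hn _ (zpow_mem_zpowers x m)
  rw [← hm x (mem_zpowers x), hm x (mem_zpowers x)] at h
  have h2 := c.even_of (k := m * n - 1) (by
    rw [zpow_sub, zpow_mul, ← h, ← hm x (mem_zpowers x)]; group)
  exact ⟨m, (Int.odd_mul.1 (by simpa [Int.even_sub_one] using h2)).1, hm⟩

theorem conj_mem {y : S} (hy : y ∈ zpowers x) (s : S) : s * y * s⁻¹ ∈ zpowers x := by
  obtain ⟨m, hm⟩ := c.pw' s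
  exact hm y hy ▸ zpow_mem hy m

theorem comm {y z : S} (hy : y ∈ zpowers x) (hz : z ∈ zpowers x) : y * z = z * y := by
  obtain ⟨a, rfl⟩ := hy
  obtain ⟨b, rfl⟩ := hz
  exact zpow_mul_comm x a b

theorem sq_iff {g : S} {k : ℤ} (h : g * u * g⁻¹ = u * x ^ k) : Sq x u g ↔ Even k := by
  refine ⟨fun ⟨j, hj⟩ => ?_, fun ⟨j, hj⟩ => ⟨j, by rw [h, hj, two_mul]⟩⟩
  have := c.even_of (k := k - 2 * j) (by
    rw [zpow_sub, mul_left_cancel (h.symm.trans hj), mul_inv_cancel])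
  simpa [Int.even_sub] using this

theorem sq_mul (g h : S) : Sq x u (g * h) ↔ (Sq x u g ↔ Sq x u h) := by
  obtain ⟨a, ha⟩ := c.yy g
  obtain ⟨b, hb⟩ := c.yy h
  obtain ⟨m, hm, h1⟩ := c.pw g
  rw [c.sq_iff ha, c.sq_iff hb, c.sq_iff (k := a + b * m) (by
    rw [zpow_add, zpow_mul, ← h1 _ (zpow_mem_zpowers x b), ← mul_assoc u, ← ha, conj_mul, ← hb]
    group), Int.even_add, Int.even_mul]
  simp [Int.not_even_iff_odd.2 hm]

theorem sq_of_comm {g : S} (h : g * u = u * g) : Sq x u g := ⟨0, by simp [h]⟩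

theorem sq_inv (g : S) : Sq x u g⁻¹ ↔ Sq x u g := by
  have := (c.sq_mul g⁻¹ g).1 (c.sq_of_comm (by simp))
  exact this

/-- The dihedral subgroup generated by the homologies. -/
def D : Subgroup S := ext2 (zpowers x) u (c.uu ▸ one_mem _) fun _ h => c.conj_mem h u

theorem mem_D {g : S} : g ∈ c.D ↔ g ∈ zpowers x ∨ u * g ∈ zpowers x := Iff.rfl

theorem u_mem : u ∈ c.D := Or.inr (c.uu ▸ one_mem _)

theorem normal_D : c.D.Normal := ⟨fun g hg s => by
  rcases hg with h | h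
  · exact Or.inl (c.conj_mem h s)
  · obtain ⟨k, hk⟩ := c.yy s
    have := c.D.mul_mem (c.D.mul_mem c.u_mem (Or.inl (zpow_mem_zpowers x k)))
      (Or.inl (c.conj_mem h s))
    rwa [← hk, conj_mul, ← mul_assoc u, c.uu, one_mul] at this⟩

theorem mem_T {g : S} (hg : g ∈ c.D) (h : g • A = A) : g ∈ zpowers x :=
  hg.resolve_right fun h1 => c.uA (by simpa [mul_smul, h] using ((c.gen _).2 h1).1)

theorem t_notMem : t ∉ zpowers r := fun h => c.tA' ((c.rg t).1 h).2.1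

theorem not_H {g : S} (hg : g ∈ zpowers r) : ¬ H g := fun h =>
  c.t_notMem (c.eq_t h ((c.rg g).1 hg).1 ▸ hg)

theorem mem_D_of {v : S} (hv : H v) : v ∈ c.D := by
  by_cases h : v = t
  · exact Or.inl (h ▸ c.t_mem')
  · exact Or.inr ((c.gen _).1 (c.xs_of hv h))

theorem br_notMem {g : S} (h : Br H g) : g ∉ c.D := by
  rintro (h1 | h1)
  · have := c.ax.mul c.hu ((c.gen g).2 h1).2 (by
      rw [mul_assoc, c.inv h1, inv_eq_of_mul_eq_one_right h.1]) fun e => h.2.1 (by simpa using e)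
    rw [← mul_assoc, c.uu, one_mul] at this
    exact h.2.2 this
  · have := ((c.gen _).2 h1).2
    rw [← mul_assoc, c.uu, one_mul] at this
    exact h.2.2 this

theorem sq_D {g : S} (hg : g ∈ c.D) : Sq x u g := by
  have key : ∀ y ∈ zpowers x, Sq x u y := by
    rintro _ ⟨k, rfl⟩
    refine ⟨-k, ?_⟩
    simp only
    rw [c.inv (zpow_mem_zpowers x k), mul_assoc, ← zpow_neg, ← zpow_add, two_mul]
  rcases hg with h | h
  · exact key g h
  · exact ((c.sq_mul u g).1 (key _ h)).1 (c.sq_of_comm rfl)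

theorem sq_R {g : S} (hg : g ∈ zpowers r) : Sq x u g := c.sq_of_comm ((c.rg g).1 hg).2.2

theorem cent {g : S} (h1 : g • A = A) (h2 : g * u = u * g) :
    g ∈ zpowers r ∨ t * g ∈ zpowers r := by
  rcases two_perm c.fu h2 (Or.inl rfl) with h | h
  · exact Or.inl ((c.rg g).2 ⟨h1, h, h2⟩)
  · refine Or.inr ((c.rg _).2 ⟨by rw [mul_smul, h1, c.tA], ?_,
      by rw [mul_assoc, h2, ← mul_assoc, ← c.cen, mul_assoc]⟩)
    rw [mul_smul, h, two_swap c.fu (c.cen u).symm c.AB'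
      ((two_perm c.fu (c.cen u).symm (Or.inl rfl)).resolve_left c.tA')]

theorem decomp {g : S} (h : Sq x u g) : ∃ d ∈ c.D, ∃ k : ℤ, g = d * r ^ k := by
  obtain ⟨j, hj⟩ := h
  have h1 : x ^ j * g * u = u * (x ^ j * g) := by
    rw [mul_assoc, mul_inv_eq_iff_eq_mul.1 hj, ← mul_assoc, ← mul_assoc,
      c.inv (zpow_mem_zpowers x j), two_mul, zpow_add]
    group
  have key : ∀ d ∈ c.D, (d * g) • A = A → d * g * u = u * (d * g) →
      ∃ d ∈ c.D, ∃ k : ℤ, g = d * r ^ k := fun d hd h2 h3 => by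
    rcases c.cent h2 h3 with ⟨k, hk⟩ | ⟨k, hk⟩
    · exact ⟨d⁻¹, inv_mem hd, k, by simp only at hk; rw [hk]; group⟩
    · exact ⟨(t * d)⁻¹, inv_mem (c.D.mul_mem (c.mem_D_of c.ht) hd), k,
        by simp only at hk; rw [hk]; group⟩
  have hx : x ^ j ∈ c.D := Or.inl (zpow_mem_zpowers x j)
  by_cases h2 : (x ^ j * g) • A = A
  · exact key _ hx h2 h1
  · exact key _ (c.D.mul_mem c.u_mem hx) (by rw [mul_assoc]; exact c.mul_fix c.uA h2)
      (by rw [mul_assoc u, mul_assoc u, h1])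

theorem invol_R {a b : S} (ha : a ∈ zpowers r) (hb : b ∈ zpowers r) (h1 : a * a = 1) (h2 : a ≠ 1)
    (h3 : b * b = 1) (h4 : b ≠ 1) : a = b := by_contra fun hne =>
  c.not_H (mul_mem ha hb) (c.ax.baer ⟨h1, h2, c.not_H ha⟩ ⟨h3, h4, c.not_H hb⟩ (by
    obtain ⟨i, rfl⟩ := ha
    obtain ⟨j, rfl⟩ := hb
    exact zpow_mul_comm r i j) hne)

variable [Finite S]

theorem eq_one {g : S} (h1 : g ∈ c.D) (h2 : g ∈ zpowers r) : g = 1 := by_contra fun hne =>
  c.t_notMem (c.eq_of_mem ((c.rg g).1 h2).2.2 (c.xs_t_mem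
    ((c.gen g).2 (c.mem_T h1 ((c.rg g).1 h2).1)) hne) ▸ h2)

theorem sq_eq_one {d g : S} (hd : d ∈ c.D) (hg : g ∈ zpowers r) (h : d * g * (d * g) ∈ c.D) :
    g * g = 1 :=
  c.eq_one (by simpa [mul_assoc] using
    c.D.mul_mem (c.D.inv_mem (c.D.mul_mem hd (c.normal_D.conj_mem d hd g))) h) (mul_mem hg hg)

theorem br_in {a b : S} (ha : Br H a) (hb : Br H b) (h1 : Sq x u a) (h2 : Sq x u b) :
    a * b ∈ c.D := by
  obtain ⟨d, hd, i, rfl⟩ := c.decomp h1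
  obtain ⟨e, he, j, rfl⟩ := c.decomp h2
  have h3 := c.sq_eq_one hd (zpow_mem_zpowers r i) (ha.1 ▸ one_mem _)
  rw [← c.invol_R (zpow_mem_zpowers r i) (zpow_mem_zpowers r j) h3
    (fun h => c.br_notMem ha (by rwa [h, mul_one]))
    (c.sq_eq_one he (zpow_mem_zpowers r j) (hb.1 ▸ one_mem _))
    fun h => c.br_notMem hb (by rwa [h, mul_one])]
  simpa [mul_assoc, inv_eq_of_mul_eq_one_right h3] using
    c.D.mul_mem hd (c.normal_D.conj_mem e he (r ^ i))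

theorem inverts {b : S} (hb : b * b = 1) (h : ¬ Sq x u b) {y : S} (hy : y ∈ zpowers x) :
    b * y * b⁻¹ = y⁻¹ := by
  obtain ⟨k, hk⟩ := c.yy b
  rw [c.sq_iff hk, Int.not_even_iff_odd] at h
  have h1 : x ^ k = (u * b) ^ 2 := by
    rw [← inv_mul_eq_iff_eq_mul, c.ui, inv_eq_of_mul_eq_one_right hb] at hk
    rw [← hk, sq]; group
  refine Inv.conj_eq_inv_of_mem_zpowers (x := x ^ k)
    (h1 ▸ Inv.conj_pow_eq_inv (Inv.conj_mul_eq_inv_right c.uu hb) 2) (zpowers_le.2 ?_ hy)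
  obtain ⟨j, hj⟩ := IsPGroup.iff_orderOf.1 c.pg x
  rw [mem_zpowers_zpow_iff, hj, Int.gcd_comm, Int.gcd_eq_natAbs]
  exact Nat.Coprime.pow_left j (Nat.coprime_two_left.2 (Int.natAbs_odd.2 h))

theorem br_out (hD : ∀ a b : S, ⁅a, b⁆ ∈ c.D) {a b : S} (ha : Br H a) (hb : Br H b)
    (h1 : ¬ Sq x u a) (h2 : ¬ Sq x u b) : a * b ∈ c.D := by
  obtain ⟨d, hd, i, hi⟩ := c.decomp ((c.sq_mul a b).2 (iff_of_false h1 h2))
  have hr := zpow_mem_zpowers r i
  generalize r ^ i = ρ at hi hr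
  have h3 := c.sq_eq_one hd hr (by
    simpa [← hi, commutatorElement_def, inv_eq_of_mul_eq_one_right ha.1,
      inv_eq_of_mul_eq_one_right hb.1, mul_assoc] using hD a b)
  by_contra h4
  have h5 : ρ ≠ 1 := fun e => h4 (by rwa [hi, e, mul_one])
  have hu := ((c.rg ρ).1 hr).2.2
  obtain ⟨σ, e, he, h6, h7, h8, h9⟩ : ∃ σ, ∃ e ∈ zpowers x, a * b = e * σ ∧ σ * σ = 1 ∧ σ ∉ c.D ∧
      Sq x u σ := by
    have h6 : ρ ∉ c.D := fun h => h5 (c.eq_one h hr)
    rcases hd with h | h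
    · exact ⟨ρ, d, h, hi, h3, h6, c.sq_R hr⟩
    · refine ⟨u * ρ, (u * d)⁻¹, inv_mem h, ?_, ?_, fun h => h6 ((mul_mem_cancel_left c.u_mem).1 h),
        c.sq_of_comm (by rw [mul_assoc, hu])⟩
      · rw [← mul_assoc, c.inv (inv_mem h), inv_inv, ← mul_assoc, c.uu, one_mul, hi]
      · rw [mul_assoc, ← mul_assoc ρ, hu, mul_assoc u, h3, mul_one, c.uu]
  have h10 : a * b * e = e * (a * b) := by
    have := c.inverts ha.1 h1 (inv_mem he)
    rw [inv_inv, ← c.inverts hb.1 h2 he] at this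
    calc _ = a * (b * e * b⁻¹) * a⁻¹ * (a * b) := by group
      _ = _ := by rw [this]
  have h11 : a * σ = σ * a := by
    have e1 : σ = e⁻¹ * (a * b) := by rw [h6]; group
    have e2 : a * σ * a⁻¹ = σ⁻¹ := by
      rw [e1, ← conj_mul, c.inverts ha.1 h1 (inv_mem he), Inv.conj_mul_eq_inv_left ha.1 hb.1,
        inv_inv, mul_inv_rev e⁻¹, inv_inv, mul_inv_eq_iff_eq_mul, mul_assoc, ← h10]
      group
    rwa [inv_eq_of_mul_eq_one_right h7, mul_inv_eq_iff_eq_mul] at e2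
  exact h1 (((c.sq_mul a σ).1 (c.sq_D (c.mem_D_of (c.ax.baer ha
    ⟨h7, fun e => h8 (e ▸ one_mem _), fun h => h8 (c.mem_D_of h)⟩ h11
      fun e => h1 (e ▸ h9))))).2 h9)

theorem cent_T (a b : S) {y : S} (hy : y ∈ zpowers x) : ⁅a, b⁆ * y = y * ⁅a, b⁆ := by
  obtain ⟨m, hm⟩ := c.pw' a
  obtain ⟨n, hn⟩ := c.pw' b
  have h1 := c.conj_mem (c.conj_mem hy b⁻¹) a⁻¹
  have h2 := hm _ (c.conj_mem h1 b)
  rw [conj_zpow, ← hm _ h1] at h2
  rw [← mul_inv_eq_iff_eq_mul, commutatorElement_def]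
  calc _ = a * (b * (a⁻¹ * (b⁻¹ * y * b⁻¹⁻¹) * a⁻¹⁻¹) * b⁻¹) * a⁻¹ := by group
    _ = y := by rw [h2]; group

theorem exists_s (hD : ¬ ∀ a b : S, ⁅a, b⁆ ∈ c.D) :
    ∃ s : S, s • A = A ∧ ¬ Sq x u s ∧ ⁅s, r⁆ ∉ c.D := by
  have := c.normal_D
  by_contra hc
  push Not at hc
  let π := QuotientGroup.mk' c.D
  have hπ : ∀ d ∈ c.D, π d = 1 := fun d hd => (QuotientGroup.eq_one_iff d).2 hd
  have h1 : ∀ g, Sq x u g → ∃ k : ℤ, π g = π r ^ k := fun g hg => by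
    obtain ⟨d, hd, k, rfl⟩ := c.decomp hg
    exact ⟨k, by rw [map_mul, hπ d hd, one_mul, map_zpow]⟩
  have h2 : ∀ g, Commute (π g) (π r) := fun g => by
    by_cases hg : Sq x u g
    · obtain ⟨k, hk⟩ := h1 g hg
      exact hk ▸ (Commute.refl _).zpow_left k
    by_cases h : g • A = A
    · exact commutatorElement_eq_one_iff_commute.1
        ((map_commutatorElement π g r).symm.trans (hπ _ (hc g h hg)))
    · have := commutatorElement_eq_one_iff_commute.1 ((map_commutatorElement π _ r).symm.trans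
        (hπ _ (hc (u * g) (c.mul_fix c.uA h) fun e =>
          hg (((c.sq_mul u g).1 e).1 (c.sq_of_comm rfl)))))
      rwa [map_mul, hπ u c.u_mem, one_mul] at this
  refine hD fun a b => (QuotientGroup.eq_one_iff _).1 ((map_commutatorElement π a b).trans
    (commutatorElement_eq_one_iff_commute.2 ?_))
  by_cases ha : Sq x u a
  · obtain ⟨k, hk⟩ := h1 a ha
    exact hk ▸ (h2 b).symm.zpow_left k
  by_cases hb : Sq x u b
  · obtain ⟨k, hk⟩ := h1 b hb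
    exact hk ▸ (h2 a).zpow_right k
  obtain ⟨k, hk⟩ := h1 (a⁻¹ * b) ((c.sq_mul _ _).2 (iff_of_false (mt (c.sq_inv a).1 ha) hb))
  rw [map_mul, map_inv, inv_mul_eq_iff_eq_mul] at hk
  exact hk ▸ (Commute.refl _).mul_right ((h2 a).zpow_right k)

omit [Finite S] in
theorem not_twist {s ρ d : S} (hs : s • A = A) (hd : d ∈ zpowers x) (hρ : ρ * ρ = 1)
    (h1 : ∀ g ∈ c.D, ρ * g = g * ρ) (h2 : s * ρ * s⁻¹ = t * ρ) (h3 : s * r * s⁻¹ = d * ρ * r) :
    False := by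
  obtain ⟨a, ha⟩ := c.yy s
  obtain ⟨_, ⟨b, rfl⟩, hb⟩ := c.pw r
  obtain ⟨_, ⟨k, rfl⟩, hk⟩ := c.pw s
  obtain ⟨δ, rfl⟩ := hd
  obtain ⟨e, he, i, hi⟩ := c.decomp ((c.sq_mul s s).2 Iff.rfl)
  have hr := (c.rg _).1 (zpow_mem_zpowers r i)
  obtain ⟨ε, rfl⟩ := c.mem_T he (by rw [← hr.1, ← mul_smul, ← hi, hr.1, mul_smul, hs, hs])
  simp only at h3 hi
  have hx : ∀ n : ℤ, x ^ n ∈ zpowers x := zpow_mem_zpowers x
  have hu : ∀ n : ℤ, x ^ n * u = u * x ^ (-n) := fun n => by rw [c.inv (hx n), zpow_neg]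
  have hρx : ∀ n : ℤ, ρ * x ^ n = x ^ n * ρ := fun n => h1 _ (Or.inl (hx n))
  have hrx : ∀ n : ℤ, r * x ^ n = x ^ (n * (2 * b + 1)) * r := fun n => by
    rw [zpow_mul, ← hb _ (hx n), inv_mul_cancel_right]
  have hru := ((c.rg r).1 (mem_zpowers r)).2.2
  have e1 : x ^ (-δ + a * (2 * b + 1) - (a + δ)) = 1 := by
    have : s * r * s⁻¹ * (s * u * s⁻¹) = s * u * s⁻¹ * (s * r * s⁻¹) := by
      rw [conj_mul, conj_mul, hru]
    rw [h3, ha] at this
    have h4 : x ^ δ * ρ * r * (u * x ^ a) = u * (x ^ (-δ) * x ^ (a * (2 * b + 1))) * ρ * r := by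
      calc _ = x ^ δ * (ρ * (r * u)) * x ^ a := by group
        _ = u * x ^ (-δ) * ρ * (r * x ^ a) := by
          rw [hru, ← mul_assoc ρ, h1 u c.u_mem, ← hu]; group
        _ = u * x ^ (-δ) * (ρ * x ^ (a * (2 * b + 1))) * r := by rw [hrx]; group
        _ = _ := by rw [hρx]; simp only [mul_assoc]
    rw [h4, ← mul_assoc (u * x ^ a), ← mul_assoc (u * x ^ a), mul_left_inj, mul_left_inj,
      mul_assoc u, mul_right_inj] at this
    rw [zpow_sub, zpow_add, zpow_add, this, mul_inv_cancel]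
  have e2 : x ^ (a + a * (2 * k + 1) + (ε + ε)) = 1 := by
    have h4 : s * s * u * (s * s)⁻¹ = u * (x ^ a * x ^ (a * (2 * k + 1))) := by
      rw [zpow_mul, ← hk _ (hx a), ← mul_assoc u, ← ha, conj_mul, ← ha]; group
    rw [hi, mul_assoc _ _ u, hr.2.2, ← mul_assoc, hu, mul_inv_rev, ← mul_assoc,
      mul_inv_cancel_right, mul_assoc, mul_right_inj] at h4
    rw [zpow_add, zpow_add, ← h4]; group
  have e3 : x ^ (δ * (2 * k + 1) + δ) * t = x ^ (ε + -ε * (2 * b + 1)) := by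
    have h4 : s * s * r * (s * s)⁻¹ = x ^ (δ * (2 * k + 1) + δ) * t * r := by
      calc _ = s * (s * r * s⁻¹) * s⁻¹ := by group
        _ = s * x ^ δ * s⁻¹ * (s * ρ * s⁻¹) * (s * r * s⁻¹) := by
          rw [conj_mul, conj_mul, ← h3]
        _ = (x ^ δ) ^ (2 * k + 1) * (t * (ρ * x ^ δ * ρ)) * r := by
          rw [hk _ (hx δ), h2, h3]; simp only [mul_assoc]
        _ = _ := by
          rw [hρx, mul_assoc _ ρ, hρ, mul_one, ← c.cen, ← zpow_mul, ← mul_assoc, ← zpow_add]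
    apply mul_right_cancel (b := r)
    rw [← h4, hi, zpow_add, mul_assoc _ _ r, mul_assoc _ _ r, ← hrx]
    group
  apply c.ax.ne c.ht
  rw [← mul_right_inj (x ^ (δ * (2 * k + 1) + δ)), e3, mul_one, ← mul_inv_eq_one, ← zpow_sub,
    show ε + -ε * (2 * b + 1) - (δ * (2 * k + 1) + δ) = (a + a * (2 * k + 1) + (ε + ε)) * -b +
      (-δ + a * (2 * b + 1) - (a + δ)) * (k + 1) by ring, zpow_add, zpow_mul, zpow_mul, e1, e2]
  simp

theorem exists_central {s : S} (hs : s • A = A) (h1 : ¬ Sq x u s) (h2 : ⁅s, r⁆ ∉ c.D) :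
    ∃ ρ ∈ zpowers r, Br H ρ ∧ (∀ g, g * ρ = ρ * g) ∧ ∃ a ∈ zpowers r, a * a = ρ := by
  have hA : ∀ g : S, g • A = A → (s * g * s⁻¹) • A = A := fun g h => by
    rw [mul_smul, mul_smul, inv_smul_eq_iff.2 hs.symm, h, hs]
  obtain ⟨d, hd, k, hk⟩ := c.decomp ((c.sq_mul (s * r) s⁻¹).2 (iff_of_false
    (fun h => h1 (((c.sq_mul s r).1 h).2 (c.sq_R (mem_zpowers r)))) (mt (c.sq_inv s).1 h1)))
  have hr := (c.rg _).1 (zpow_mem_zpowers r k)
  have hd' := c.mem_T hd (by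
    rw [← hr.1, ← mul_smul, ← hk, hr.1]; exact hA r ((c.rg r).1 (mem_zpowers r)).1)
  have h3 : ⁅s, r⁆ = d * r ^ (k - 1) := by rw [commutatorElement_def, hk]; group
  have h4 : s * r * s⁻¹ = d * r ^ (k - 1) * r := by rw [hk]; group
  have h5 := zpowers_le.2 (zpow_mem_zpowers r (k - 1))
  generalize r ^ (k - 1) = z at h3 h4 h5
  have hcD : ∀ g ∈ zpowers z, ∀ e ∈ c.D, g * e = e * g := by
    have hT : ∀ y ∈ zpowers x, Commute z y := fun y hy => by
      have := c.cent_T s r hy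
      rwa [h3, ← mul_assoc, ← c.comm hd' hy, mul_assoc, mul_assoc, mul_right_inj] at this
    rintro _ ⟨j, rfl⟩ e he
    refine Commute.zpow_left ?_ j
    rcases he with he | he
    · exact hT e he
    · have hu : Commute z u := ((c.rg z).1 (h5 (mem_zpowers z))).2.2
      simpa using hu.inv_right.mul_right (hT _ he)
  have hcj : ∀ g ∈ zpowers z, s * g * s⁻¹ ∈ zpowers r ∨ t * (s * g * s⁻¹) ∈ zpowers r :=
    fun g hg => c.cent (hA g ((c.rg g).1 (h5 hg)).1) (by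
      have := hcD g hg _ (c.normal_D.conj_mem u c.u_mem s⁻¹)
      calc _ = s * (g * (s⁻¹ * u * s⁻¹⁻¹)) * s⁻¹ := by group
        _ = _ := by rw [this]; group)
  obtain ⟨ρ, hρ, ho⟩ := Inv.exists_involution_of_isPGroup (c.pg.to_subgroup (zpowers z))
    fun e => h2 (by rwa [h3, zpowers_eq_bot.1 e, mul_one])
  have hb : Br H ρ :=
    ⟨Inv.mul_self_of_orderOf_two ho, Inv.ne_one_of_orderOf_two ho, c.not_H (h5 hρ)⟩
  have hb' := c.ax.br_conj hb s
  by_cases h6 : s * ρ * s⁻¹ ∈ zpowers r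
  · have h7 := mul_inv_eq_iff_eq_mul.1 (c.invol_R h6 (h5 hρ) hb'.1 hb'.2.1 hb.1 hb.2.1)
    have h8 : ∀ g, Sq x u g → g * ρ = ρ * g := fun g hg => by
      obtain ⟨e, he, j, rfl⟩ := c.decomp hg
      obtain ⟨i, rfl⟩ := h5 hρ
      simp only at *
      rw [mul_assoc, zpow_mul_comm, ← mul_assoc, ← hcD _ hρ e he, mul_assoc]
    refine ⟨ρ, h5 hρ, hb, fun g => ?_, ?_⟩
    · by_cases hg : Sq x u g
      · exact h8 g hg
      · apply mul_left_cancel (a := s)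
        rw [← mul_assoc, h8 _ ((c.sq_mul s g).2 (iff_of_false h1 hg)), ← mul_assoc, ← mul_assoc, h7]
    · obtain ⟨m, hm⟩ := mem_zpowers_iff.1 (h5 hρ)
      rcases Int.even_or_odd m with ⟨j, rfl⟩ | h
      · exact ⟨_, zpow_mem_zpowers r j, by rw [← hm, zpow_add]⟩
      · rw [zpow_eq_of_odd c.pg h (by rw [hm, hb.1])] at hm
        exact absurd (by
          rw [commutatorElement_eq_one_iff_mul_comm.2 (hm ▸ h7)]; exact one_mem _) h2
  · exfalso
    have h7 := c.invol_R ((hcj ρ hρ).resolve_left h6) (h5 hρ)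
      (by rw [mul_assoc t, ← mul_assoc _ t, c.cen, mul_assoc t, hb'.1, mul_one, c.tt])
      (fun e => hb'.2.2 (by
        rw [eq_inv_of_mul_eq_one_right e, inv_eq_of_mul_eq_one_right c.tt]; exact c.ht))
      hb.1 hb.2.1
    obtain ⟨m, hm⟩ := mem_zpowers_iff.1 hρ
    rcases Int.even_or_odd m with ⟨j, rfl⟩ | h
    · rw [← hm, zpow_add, ← conj_mul] at h6
      rcases hcj _ (zpow_mem_zpowers z j) with h | h
      · exact h6 (mul_mem h h)
      · have := mul_mem h h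
        rw [mul_assoc t, ← mul_assoc _ t, c.cen, mul_assoc t, ← mul_assoc t, c.tt, one_mul] at this
        exact h6 this
    · rw [zpow_eq_of_odd c.pg h (by rw [hm, hb.1])] at hm
      subst hm
      exact c.not_twist hs hd' hb.1 (hcD _ hρ) 
        (by rw [eq_inv_mul_iff_mul_eq.2 h7, inv_eq_of_mul_eq_one_right c.tt]) h4

end Cg

/-- The structure theorem: either the Baer involutions fall into at most two cosets of a subgroup
with abelian quotient, or some Baer involution is central and a square. -/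
theorem Cf.struct [Finite S] {H : S → Prop} {t u : S} {A B A' B' : Ω} (c : Cf H t u A B A' B') :
    (∃ D : Subgroup S, (∀ a b : S, ⁅a, b⁆ ∈ D) ∧ (∀ a, Br H a → a ∉ D) ∧
      ∃ Q : S → Prop, ∀ a b, Br H a → Br H b → (Q a ↔ Q b) → a * b ∈ D) ∨
    ∃ ρ, Br H ρ ∧ (∀ g, g * ρ = ρ * g) ∧ (∀ v, H v → v ≠ t → ∃ a, a * a = ρ ∧ a * v = v * a) ∧
      (∀ v, H v → (∀ g, g * v = v * g) → v = t) ∧ ∀ a, H (a * a * ρ) → a * a * ρ = t := by
  obtain ⟨x, hx⟩ := c.exists_gen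
  obtain ⟨r, hr⟩ := c.exists_r
  have c' : Cg H t u x r A B A' B' := ⟨c, hx, hr⟩
  by_cases hD : ∀ a b : S, ⁅a, b⁆ ∈ c'.D
  · refine Or.inl ⟨c'.D, hD, fun a => c'.br_notMem, Sq x u, fun a b ha hb h => ?_⟩
    by_cases h1 : Sq x u a
    · exact c'.br_in ha hb h1 (h.1 h1)
    · exact c'.br_out hD ha hb h1 (mt h.2 h1)
  obtain ⟨s, hs, h1, h2⟩ := c'.exists_s hD
  obtain ⟨ρ, h3, h4, h5, a, h6, h7⟩ := c'.exists_central hs h1 h2
  have key : ∀ v, H v → v ≠ t → ∃ g, g * u * g⁻¹ = v := fun v hv h => by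
    obtain ⟨k, rfl⟩ := c'.exists_eq hv h
    obtain ⟨j, hj⟩ := c'.yy s
    have h8 : ∀ n m : ℤ, x ^ n * (u * x ^ m) * (x ^ n)⁻¹ = u * x ^ (m - (n + n)) := fun n m => by
      rw [← mul_assoc, c'.inv (zpow_mem_zpowers x n)]; group
    rw [c'.sq_iff hj] at h1
    rcases Int.even_or_odd k with ⟨n, hn⟩ | hk
    · exact ⟨x ^ (-n), by simpa [hn] using h8 (-n) 0⟩
    · obtain ⟨n, hn⟩ := (Int.not_even_iff_odd.1 h1).sub_odd hk
      exact ⟨x ^ n * s, by
        rw [mul_inv_rev, ← mul_assoc, mul_assoc _ s, mul_assoc _ _ s⁻¹, hj, h8, ← hn,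
          sub_sub_cancel]⟩
  refine Or.inr ⟨ρ, h4, h5, fun v hv h => ?_, fun v hv h => by_contra fun hne => ?_,
    fun b hb => c.eq_t hb ?_⟩
  · obtain ⟨g, rfl⟩ := key v hv h
    exact ⟨g * a * g⁻¹, by rw [conj_mul, h7, h5, mul_inv_cancel_right],
      by rw [conj_mul, conj_mul, ((hr a).1 h6).2.2]⟩
  · obtain ⟨g, hg⟩ := key v hv hne
    obtain rfl : u = v := mul_left_cancel (a := g) (by rw [h, ← hg, inv_mul_cancel_right])
    exact h1 (c'.sq_of_comm (h s))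
  · rw [mul_smul, ((hr ρ).1 h3).1, two_sq c.ft (c.cen b) c.AB]

end Cfsg.Agent.Oval
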